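import Cfsg.Agent.H98.U62.Main
import Cfsg.Agent.H97.Uniq.Pts

/-!
An involution whose centralizer is a perfect double cover of U6(2) and contains another conjugate: the
conjugates in the centralizer are the lifts of the transvections of one kind, so every conjugate carries
the point model of the polar space.
-/

set_option autoImplicit false
set_option linter.unusedSectionVars false

namespace Cfsg.Agent.H98.M22Class

open Cfsg Cfsg.Agent.H98.U62 Cfsg.Agent.H17.UPoints Cfsg.Agent.H89.M22 H53.SylowPlane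
open Cfsg.Agent.H43.FischerTwins

/-- What is used of the centralizers of a conjugacy class of involutions with this centralizer. -/
structure Star {G : Type*} [Group G] (D : Set G) (F : Type) [Field F] [Fintype F] [DecidableEq F]
    (hF : Fintype.card F = 4) : Prop where
  conj : ∀ g : G, ∀ x ∈ D, g * x * g⁻¹ ∈ D
  trans : ∀ x ∈ D, ∀ y ∈ D, ∃ g : G, g * x * g⁻¹ = y
  sq : ∀ x ∈ D, x * x = 1
  ne_one : ∀ x ∈ D, x ≠ 1
  models : ∀ x ∈ D, Nonempty (H97.Uniq.Pts D x F hF)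
  cent : ∀ x ∈ D, ∀ g : G, Commute x g → g ∈ Subgroup.closure (Sset D x)
  ctr : ∀ x ∈ D, ∀ g : G, Commute x g → (∀ h, Commute x h → Commute g h) → g = 1 ∨ g = x
  rel : ∀ x ∈ D, ∃ a ∈ Sset D x, ∃ l : List G, Odd l.length ∧
    (∀ y ∈ l, y ∈ D ∧ Commute x y ∧ Commute a y) ∧ l.prod = 1

variable {G : Type*} [Group G] [Finite G]

/-- The conjugate of a model. -/
theorem pts_move {D : Set G} {F : Type} [Field F] [Fintype F] [DecidableEq F] {hF : Fintype.card F = 4}
    (hconj : ∀ g : G, ∀ x ∈ D, g * x * g⁻¹ ∈ D) {x : G} (R : H97.Uniq.Pts D x F hF) (g : G) :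
    Nonempty (H97.Uniq.Pts D (g * x * g⁻¹) F hF) := by
  have hs : ∀ {y : G}, y ∈ Sset D x → g * y * g⁻¹ ∈ Sset D (g * x * g⁻¹) := fun {y} hy =>
    ⟨hconj g y hy.1, fun e => hy.2.1 (mul_left_cancel (mul_right_cancel e)), (Commute.conj_iff g).2 hy.2.2⟩
  refine ⟨{ pt := fun v => g * R.pt v * g⁻¹
            mem := fun v h0 hv => hs (R.mem v h0 hv)
            surj := fun y hy => ?_
            inj := fun u v hu huu hv hvv e => R.inj u v hu huu hv hvv (mul_left_cancel (mul_right_cancel e))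
            smul := fun k v hk hv hvv => by rw [R.smul k v hk hv hvv]
            commute := fun u v hu huu hv hvv => (Commute.conj_iff g).trans (R.commute u v hu huu hv hvv)
            conj := fun u v hu huu hv hvv => by rw [← R.conj u v hu huu hv hvv]; group
            lift := fun σ => ?_ }⟩
  · have hy' : g⁻¹ * y * g ∈ Sset D x := by
      refine ⟨by simpa using hconj g⁻¹ y hy.1, fun e => hy.2.1 (by rw [← e]; group), ?_⟩
      have := (Commute.conj_iff g⁻¹).2 hy.2.2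
      simpa [mul_assoc] using this
    obtain ⟨v, h0, hv, e⟩ := R.surj _ hy'
    exact ⟨v, h0, hv, by rw [e]; group⟩
  · obtain ⟨h, hh, e⟩ := R.lift σ
    refine ⟨g * h * g⁻¹, ?_, fun v h0 hv => by rw [← e v h0 hv]; group⟩
    have : (Subgroup.closure (Sset D x)).map (MulAut.conj g).toMonoidHom ≤
        Subgroup.closure (Sset D (g * x * g⁻¹)) := by
      rw [MonoidHom.map_closure]
      refine Subgroup.closure_mono ?_
      rintro _ ⟨y, hy, rfl⟩
      exact hs hy
    exact this ⟨h, hh, rfl⟩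

/-- The conjugates of the involution under the hypotheses. -/
theorem exists_star (d : G) (hd : orderOf d = 2)
    (hq : Cfsg.IsQuasisimple (Subgroup.centralizer ({d} : Set G)))
    [((Subgroup.zpowers d).subgroupOf (Subgroup.centralizer ({d} : Set G))).Normal]
    (K : Type) [Field K] [Fintype K] [DecidableEq K] (hK : Fintype.card K = 4)
    (e : (Subgroup.centralizer ({d} : Set G)) ⧸
      (Subgroup.zpowers d).subgroupOf (Subgroup.centralizer ({d} : Set G)) ≃* Cfsg.PSU 6 K 2)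
    (hnwc : ∃ g : G, g * d * g⁻¹ ∈ Subgroup.centralizer ({d} : Set G) ∧ g * d * g⁻¹ ≠ d) :
    Star (conjugatesOf d) K hK := by
  classical
  haveI : Fact (Nat.Prime 2) := ⟨Nat.prime_two⟩
  have hdd : d * d = 1 := by rw [← pow_two, ← hd, pow_orderOf_eq_one]
  have hd1 : d ≠ 1 := fun h => by rw [h, orderOf_one] at hd; exact absurd hd (by norm_num)
  set C := Subgroup.centralizer ({d} : Set G) with hC
  let z : ↥C := ⟨d, Subgroup.mem_centralizer_singleton_iff.2 rfl⟩
  let π : ↥C →* Cfsg.PSU 6 K 2 :=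
    e.toMonoidHom.comp (QuotientGroup.mk' ((Subgroup.zpowers d).subgroupOf C))
  have hπ : ∀ h : ↥C, π h = e (QuotientGroup.mk h) := fun _ => rfl
  have hmem : ∀ h : ↥C, (h : G) ∈ Subgroup.zpowers d ↔ h = 1 ∨ h = z := by
    intro h
    constructor
    · intro hm
      obtain ⟨k, hk⟩ := Subgroup.mem_zpowers_iff.1 hm
      rcases Int.even_or_odd' k with ⟨m, rfl | rfl⟩
      · refine Or.inl (Subtype.ext ?_)
        rw [← hk, zpow_mul, zpow_two, hdd, one_zpow]; rfl
      · refine Or.inr (Subtype.ext ?_)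
        rw [← hk, zpow_add, zpow_mul, zpow_two, hdd, one_zpow, one_mul, zpow_one]
    · rintro (rfl | rfl)
      · exact one_mem _
      · exact Subgroup.mem_zpowers d
  have hker : ∀ h : ↥C, π h = 1 ↔ h = 1 ∨ h = z := fun h => by
    rw [← hmem h, hπ, e.map_eq_one_iff, QuotientGroup.eq_one_iff, Subgroup.mem_subgroupOf]
  have hzc : ∀ h : ↥C, Commute z h := fun h => Subtype.ext
    (Subgroup.mem_centralizer_singleton_iff.1 h.2).symm
  have hsur : Function.Surjective π := e.surjective.comp (QuotientGroup.mk'_surjective _)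
  let c : Cov ↥C K :=
    { card := hK, z := z, π := π, hker := hker, hzc := hzc
      hz1 := fun h => hd1 (congrArg Subtype.val h)
      hsur := hsur, perf := hq.1.commutator_eq_top }
  obtain ⟨w, -, -, hw⟩ := Cfsg.Agent.H43.exists_omega hK
  obtain ⟨m, h5⟩ := exists_five hw c
  set A₀ := m.grpz (PL (F := K)) with hA₀
  obtain ⟨h02, h0c⟩ := grpz_elementary m (ti_PL hK)
  set A₁ := A₀.map C.subtype with hA₁
  have h12 : ∀ x ∈ A₁, x * x = 1 := by
    rintro _ ⟨x, hx, rfl⟩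
    rw [← map_mul, h02 x hx, map_one]
  have h1c : ∀ x ∈ A₁, ∀ y ∈ A₁, Commute x y := by
    rintro _ ⟨x, hx, rfl⟩ _ ⟨y, hy, rfl⟩
    exact (h0c x hx y hy).map _
  have hA₁card : Nat.card A₁ = 1024 := by
    rw [hA₁, Subgroup.card_map_of_injective (Subgroup.subtype_injective _), card_A0 m hw h5]
  have move : ∀ {x : G}, x ∈ A₁ → IsConj d x →
      ∃ k ∈ Subgroup.normalizer (A₁ : Set G), k * x * k⁻¹ = d := by
    intro x hx hdx
    obtain ⟨k, hk⟩ := isConj_iff.1 hdx
    set B := A₁.map (MulAut.conj k⁻¹).toMonoidHom with hB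
    have hxk : k⁻¹ * x * k = d := by rw [← hk]; group
    have hBC : B ≤ C := by
      rintro _ ⟨y, hy, rfl⟩
      refine Subgroup.mem_centralizer_singleton_iff.2 ?_
      show k⁻¹ * y * (k⁻¹)⁻¹ * d = d * (k⁻¹ * y * (k⁻¹)⁻¹)
      rw [← hxk, inv_inv]
      calc k⁻¹ * y * k * (k⁻¹ * x * k) = k⁻¹ * (y * x) * k := by group
        _ = k⁻¹ * (x * y) * k := by rw [(h1c y hy x hx).eq]
        _ = _ := by group
    obtain ⟨b, hb⟩ := big_conj m hw h5 (B := B.subgroupOf C)
      (fun y hy => Subtype.ext (by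
        obtain ⟨u, hu, e⟩ := (show (y : G) ∈ B from hy)
        show (y : G) * y = 1
        rw [← e, ← map_mul, h12 u hu, map_one]))
      (fun y hy y' hy' => Subtype.ext (by
        obtain ⟨u, hu, e⟩ := (show (y : G) ∈ B from hy)
        obtain ⟨u', hu', e'⟩ := (show (y' : G) ∈ B from hy')
        show (y : G) * y' = y' * y
        rw [← e, ← e', ← map_mul, ← map_mul, (h1c u hu u' hu').eq]))
      (by rw [Nat.card_congr (Subgroup.subgroupOfEquivOfLe hBC).toEquiv, hB,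
        Subgroup.card_map_of_injective (MulAut.conj k⁻¹).injective, hA₁card])
    have h1 : B.map (MulAut.conj (b : G)).toMonoidHom = A₁ := by
      rw [hA₁, hA₀, ← hb]
      conv_lhs => rw [← inf_eq_left.2 hBC, ← Subgroup.subgroupOf_map_subtype]
      rw [Subgroup.map_map, Subgroup.map_map]
      rfl
    refine ⟨(b : G) * k⁻¹, Subgroup.mem_normalizer_iff_map_conj_eq.2 ?_, ?_⟩
    · show A₁.map (MulAut.conj ((b : G) * k⁻¹)).toMonoidHom = A₁
      rw [show (MulAut.conj ((b : G) * k⁻¹)).toMonoidHom =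
        (MulAut.conj (b : G)).toMonoidHom.comp (MulAut.conj k⁻¹).toMonoidHom from
          MonoidHom.ext fun y => by simp [mul_assoc], ← Subgroup.map_map]
      exact h1
    · rw [show (b : G) * k⁻¹ * x * ((b : G) * k⁻¹)⁻¹ = (b : G) * (k⁻¹ * x * k) * (b : G)⁻¹ by group, hxk,
        (Subgroup.mem_centralizer_singleton_iff.1 b.2), mul_inv_cancel_right]
  have hnsq : ¬ ∃ y : G, y ^ 2 = d := by
    rintro ⟨y, hy⟩
    have hyC : y ∈ C := Subgroup.mem_centralizer_singleton_iff.2 (by rw [← hy, ← pow_succ', ← pow_succ])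
    have hyz : (⟨y, hyC⟩ : ↥C) * ⟨y, hyC⟩ = z := Subtype.ext ((pow_two y).symm.trans hy)
    have h1 := Cfsg.Agent.H43.sq_eq_one_of_image hK hker hzc hsur rfl (y := (⟨y, hyC⟩ : ↥C))
      (by rw [hyz]; exact (hker z).2 (Or.inr rfl))
    rw [hyz] at h1
    exact hd1 (congrArg Subtype.val h1)
  let Q : ↥C → Prop := fun x => IsConj d (x : G)
  have hQconj : ∀ (h : ↥C) (x : ↥C), Q x → Q (h * x * h⁻¹) := fun h x hx =>
    hx.trans (isConj_iff.2 ⟨(h : G), rfl⟩)
  have toA : ∀ y : ↥C, Q y → ∃ h : ↥C, h * y * h⁻¹ ∈ A₀ := fun y hy => by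
    refine involution_conj m hw h5 (Subtype.ext ?_)
    obtain ⟨k, hk⟩ := isConj_iff.1 hy
    show (y : G) * y = 1
    rw [← hk, show k * d * k⁻¹ * (k * d * k⁻¹) = k * (d * d) * k⁻¹ by group, hdd, mul_one, mul_inv_cancel]
  have hex : ∃ x ∈ A₀, Q x ∧ x ≠ z := by
    obtain ⟨k, hkC, hkd⟩ := hnwc
    have hy : Q (⟨k * d * k⁻¹, hkC⟩ : ↥C) := isConj_iff.2 ⟨k, rfl⟩
    obtain ⟨h, hh⟩ := toA _ hy
    refine ⟨_, hh, hQconj h _ hy, fun e => hkd ?_⟩
    have e' : (h : G) * (k * d * k⁻¹) * (h : G)⁻¹ = d := congrArg Subtype.val e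
    calc k * d * k⁻¹ = (h : G)⁻¹ * ((h : G) * (k * d * k⁻¹) * (h : G)⁻¹) * h := by group
      _ = (h : G)⁻¹ * (d * h) := by rw [e', mul_assoc]
      _ = d := by rw [← Subgroup.mem_centralizer_singleton_iff.1 h.2, inv_mul_cancel_left]
  obtain ⟨h22, hkinds⟩ := kinds m hw h5 Q hQconj (fun y hy => hnsq (by
      obtain ⟨k, hk⟩ := isConj_iff.1 hy.symm
      refine ⟨k * y * k⁻¹, ?_⟩
      rw [pow_two, show k * (y : G) * k⁻¹ * (k * y * k⁻¹) = k * ((y * y : ↥C) : G) * k⁻¹ by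
        rw [Subgroup.coe_mul]; group, hk]))
    (IsConj.refl d) hex (fun x hx y hy => by
      obtain ⟨p, hp, hpx⟩ := move (x := ((x : ↥C) : G)) ⟨x, x.2, rfl⟩ hx
      obtain ⟨q, hq', hqy⟩ := move (x := ((y : ↥C) : G)) ⟨y, y.2, rfl⟩ hy
      let E : ↥A₀ ≃* ↥A₁ := A₀.equivMapOfInjective C.subtype C.subtype_injective
      have hE : ∀ u, ((E u : ↥A₁) : G) = ((u : ↥C) : G) := fun _ => rfl
      have hn : q⁻¹ * p ∈ Subgroup.normalizer (A₁ : Set G) := mul_mem (inv_mem hq') hp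
      let ψ : ↥A₁ ≃* ↥A₁ := ((MulAut.conj (q⁻¹ * p)).subgroupMap A₁).trans
        (MulEquiv.subgroupCongr (Subgroup.mem_normalizer_iff_map_conj_eq.1 hn))
      let φ : MulAut ↥A₀ := E.trans (ψ.trans E.symm)
      have hφ : ∀ u : ↥A₀, ((φ u : ↥C) : G) = q⁻¹ * p * ((u : ↥C) : G) * (q⁻¹ * p)⁻¹ := fun u => by
        rw [← hE (φ u), show E (φ u) = ψ (E u) from E.apply_symm_apply _]
        rfl
      refine ⟨φ, fun u => ?_, Subtype.ext (Subtype.ext ?_)⟩
      · show IsConj d _ ↔ IsConj d _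
        rw [hφ]
        exact ⟨fun h => h.trans (isConj_iff.2 ⟨(q⁻¹ * p)⁻¹, by group⟩),
          fun h => h.trans (isConj_iff.2 ⟨q⁻¹ * p, rfl⟩)⟩
      · rw [hφ, show q⁻¹ * p * ((x : ↥C) : G) * (q⁻¹ * p)⁻¹ = q⁻¹ * (p * ((x : ↥C) : G) * p⁻¹) * q by group,
          hpx]
        calc q⁻¹ * d * q = q⁻¹ * (q * _ * q⁻¹) * q := by rw [hqy]
          _ = _ := by group)
  -- the kind
  have hS := ti_PL (F := K) hK
  have P : ∀ {v : Fin 6 → K}, v ∈ PL (F := K) → v ≠ 0 → IsPt v := isPt_of_mem hK hS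
  have mulk : ∀ {k : ↥C}, (∀ x, Commute k x) → ∀ g x : ↥C, g * (x * k) * g⁻¹ = g * x * g⁻¹ * k :=
    fun {k} hk g x => by rw [mul_assoc (g * x) g⁻¹, ← (hk g⁻¹).eq]; group
  have kconj : ∀ {v : Fin 6 → K} (k : ↥C), (∀ x, Commute k x) → IsPt v → ∀ {u : Fin 6 → K}, IsPt u →
      Q (m.M.pt v * k) → Q (m.M.pt u * k) := by
    intro v k hk hv u hu hQ
    obtain ⟨g, hg⟩ := isConj_iff.1 (((m.hpt v hv).1).symm.trans (m.hpt u hu).1)
    have := hQconj g _ hQ
    rwa [mulk hk, hg] at this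
  have kcases : ∀ {k : ↥C}, k = 1 ∨ k = z → (∀ x, Commute k x) ∧ k * k = 1 ∧ π k = 1 := by
    rintro k (rfl | rfl)
    · exact ⟨Commute.one_left, one_mul 1, map_one _⟩
    · exact ⟨hzc, zz c, (hker z).2 (Or.inr rfl)⟩
  obtain ⟨k, hk0, hkQ⟩ : ∃ k, (k = 1 ∨ k = z) ∧ ∀ v, IsPt v → Q (m.M.pt v * k) := by
    obtain ⟨x, hxA, hxQ, hxz⟩ := hex
    obtain ⟨v, hv, hv0, h | h⟩ := (hkinds x hxA hxQ).resolve_left hxz
    · exact ⟨1, Or.inl rfl, fun u hu => kconj 1 Commute.one_left (P hv hv0) hu (by rw [mul_one, ← h]; exact hxQ)⟩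
    · exact ⟨z, Or.inr rfl, fun u hu => kconj z hzc (P hv hv0) hu (h ▸ hxQ)⟩
  obtain ⟨hkc, hkk, hkπ⟩ := kcases hk0
  have inA : ∀ {v : Fin 6 → K}, v ∈ PL (F := K) → v ≠ 0 → m.M.pt v * k ∈ A₀ := fun h h0 =>
    mul_mem (grp_le m _ (pt_mem m h h0)) (hk0.elim (fun e => e ▸ one_mem _) fun e => e ▸ z_mem m _)
  have πT : ∀ {v : Fin 6 → K}, IsPt v → π (m.M.pt v * k) = trv hK v := fun hv => by
    rw [map_mul, hkπ, mul_one]; exact (m.hpt _ hv).2
  have Tne : ∀ {v : Fin 6 → K}, IsPt v → m.M.pt v * k ≠ z := fun hv e => by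
    have h1 := trv_order c hv
    rw [← πT hv, e, (hker z).2 (Or.inr rfl), orderOf_one] at h1
    exact absurd h1 (by norm_num)
  have inAonly : ∀ x ∈ A₀, Q x → x = z ∨ ∃ v ∈ PL (F := K), v ≠ 0 ∧ x = m.M.pt v * k := by
    let B : Set ↥C := insert z ((fun x => x * k) '' pts m.M (PL (F := K)))
    have hB : B.ncard = 22 := by
      rw [Set.ncard_insert_of_notMem, Set.ncard_image_of_injective _ (mul_left_injective k),
        pts_card21 m hS (rank_PL hK)]
      rintro ⟨_, ⟨v, hv, hv0, rfl⟩, e⟩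
      exact Tne (P hv hv0) e
    have hsub : B ⊆ {x | x ∈ A₀ ∧ Q x} := by
      rintro x (rfl | ⟨_, ⟨v, hv, hv0, rfl⟩, rfl⟩)
      · exact ⟨z_mem m _, IsConj.refl d⟩
      · exact ⟨inA hv hv0, hkQ v (P hv hv0)⟩
    have heq := Set.eq_of_subset_of_ncard_le hsub (by rw [hB, h22]) (Set.toFinite _)
    intro x hx hxQ
    rcases heq.ge (show x ∈ {x | x ∈ A₀ ∧ Q x} from ⟨hx, hxQ⟩) with h | ⟨_, ⟨v, hv, hv0, rfl⟩, h⟩
    · exact Or.inl h
    · exact Or.inr ⟨v, hv, hv0, h.symm⟩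
  have hclass : ∀ y : ↥C, Q y → y = z ∨ ∃ v, IsPt v ∧ y = m.M.pt v * k := by
    intro y hy
    obtain ⟨h, hh⟩ := toA y hy
    rcases inAonly _ hh (hQconj h y hy) with e | ⟨v, hv, hv0, e⟩
    · left
      rw [show y = h⁻¹ * (h * y * h⁻¹) * h by group, e, ← (hzc h⁻¹).eq, inv_mul_cancel_right]
    · right
      obtain ⟨g, hg⟩ := QuotientGroup.mk_surjective (π h⁻¹)
      refine ⟨act g v, ⟨act_ne_zero g hv0, by rw [herm_act]; exact (P hv hv0).2⟩, ?_⟩
      rw [← conj_pt m hg.symm (P hv hv0), show y = h⁻¹ * (h * y * h⁻¹) * h by group, e, inv_inv,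
        ← mul_assoc, mul_assoc _ k, (hkc h).eq, ← mul_assoc]
  -- the model at d
  have hconj : ∀ g : G, ∀ x ∈ conjugatesOf d, g * x * g⁻¹ ∈ conjugatesOf d := fun g x hx =>
    (show IsConj d x from hx).trans (isConj_iff.2 ⟨g, rfl⟩)
  have hsmem : ∀ {v : Fin 6 → K}, IsPt v → ((m.M.pt v * k : ↥C) : G) ∈ Sset (conjugatesOf d) d :=
    fun {v} hv => ⟨hkQ v hv, fun e => Tne hv (Subtype.ext e),
      (Subgroup.mem_centralizer_singleton_iff.1 (m.M.pt v * k).2).symm⟩
  have hkc2 : ∀ x y : ↥C, x * k * (y * k) = x * y := fun x y => by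
    rw [(hkc y).mul_mul_mul_comm, hkk, mul_one]
  have hpk : π (m.a * k) = trv hK m.p := by rw [map_mul, hkπ, mul_one]; exact m.ha
  have hcl : C ≤ Subgroup.closure (Sset (conjugatesOf d) d) := by
    have h : (Subgroup.closure (conjugatesOf (m.a * k))).map C.subtype ≤
        Subgroup.closure (Sset (conjugatesOf d) d) := by
      rw [MonoidHom.map_closure]
      refine Subgroup.closure_mono ?_
      rintro _ ⟨y, hy, rfl⟩
      obtain ⟨g, rfl⟩ := isConj_iff.1 hy
      have ea : m.M.pt m.p = m.a :=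
        T_unique c m.hp m.ha (m.hpt _ m.hp).1 (mem_conjugatesOf_self) (by rw [(m.hpt _ m.hp).2, m.ha])
      obtain ⟨g', hg'⟩ := QuotientGroup.mk_surjective (π g)
      have := hsmem (v := act g' m.p) ⟨act_ne_zero g' m.hp.1, by rw [herm_act]; exact m.hp.2⟩
      rwa [← conj_pt m hg'.symm m.hp, ea, ← mulk hkc] at this
    rw [closure_T c m.hp hpk, ← MonoidHom.range_eq_map, C.range_subtype] at h
    exact h
  have hR : Nonempty (H97.Uniq.Pts (conjugatesOf d) d K hK) := by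
    refine ⟨{ pt := fun v => ((m.M.pt v * k : ↥C) : G)
              mem := fun v h0 hv => hsmem ⟨h0, hv⟩
              surj := fun y hy => ?_
              inj := fun u v hu huu hv hvv e =>
                m.M.pt_inj u v hu huu hv hvv (mul_right_cancel (Subtype.ext e))
              smul := fun a v ha hv hvv => by rw [m.M.pt_smul a v ha hv hvv]
              commute := fun u v hu huu hv hvv => ?_
              conj := fun u v hu huu hv hvv => ?_
              lift := fun σ => ?_ }⟩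
    · have hyC : y ∈ C := Subgroup.mem_centralizer_singleton_iff.2 hy.2.2.symm
      rcases hclass ⟨y, hyC⟩ hy.1 with e | ⟨v, hv, e⟩
      · exact absurd (congrArg Subtype.val e) hy.2.1
      · exact ⟨v, hv.1, hv.2, (congrArg Subtype.val e).symm⟩
    · refine Iff.trans ?_ (m.M.pt_commute u v hu huu hv hvv)
      constructor
      · intro h
        have h' : Commute (m.M.pt u * k) (m.M.pt v * k) := Subtype.ext h.eq
        refine h'.eq |> fun e => ?_
        rw [hkc2, hkc2] at e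
        exact e
      · intro h
        exact congrArg Subtype.val (show (m.M.pt u * k) * (m.M.pt v * k) = m.M.pt v * k * (m.M.pt u * k) by
          rw [hkc2, hkc2, h.eq])
    · have hu' : IsPt u := ⟨hu, huu⟩
      refine congrArg Subtype.val (show (m.M.pt u * k) * (m.M.pt v * k) * (m.M.pt u * k)⁻¹ =
        m.M.pt (v + herm v u • u) * k from ?_)
      have hπu : π (m.M.pt u) = (trv hK u : Cfsg.PSU 6 K 2) := (m.hpt u hu').2
      rw [← trv_act hK huu v, ← conj_pt m hπu ⟨hv, hvv⟩, hkc2, mul_inv_rev,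
        inv_eq_of_mul_eq_one_right hkk, ← (hkc (m.M.pt u)⁻¹).eq.symm, ← mul_assoc]
    · obtain ⟨h, hh⟩ := m.conj (g := σ)
      refine ⟨h, hcl h.2, fun v h0 hv => ?_⟩
      refine congrArg Subtype.val (show h * (m.M.pt v * k) * h⁻¹ = m.M.pt (act σ v) * k from ?_)
      rw [mulk hkc, hh v ⟨h0, hv⟩]
  -- everything is moved from d
  have hto : ∀ x ∈ conjugatesOf d, ∃ g : G, g * d * g⁻¹ = x := fun x hx => isConj_iff.1 hx
  have hrel : ∃ a ∈ Sset (conjugatesOf d) d, ∃ l : List G, Odd l.length ∧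
      (∀ y ∈ l, y ∈ conjugatesOf d ∧ Commute d y ∧ Commute a y) ∧ l.prod = 1 := by
    obtain ⟨w0, -, w20, -, -⟩ := w_facts hw
    have hp1 := pl_isPt (F := K) (a := 1) (b := 0) (d := 0) (by simp) hK
    obtain ⟨u₁, u₂, u₃, h1, h2, h3, he⟩ : ∃ u₁ u₂ u₃ : Fin 6 → K, (u₁ ∈ PL (F := K) ∧ u₁ ≠ 0) ∧
        (u₂ ∈ PL (F := K) ∧ u₂ ≠ 0) ∧ (u₃ ∈ PL (F := K) ∧ u₃ ≠ 0) ∧
        m.M.pt u₁ * m.M.pt u₂ * m.M.pt u₃ =
          m.M.pt (pl 1 0 0) * m.M.pt (pl 0 1 0) * m.M.pt (pl 0 0 1) * z := by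
      have s := frame_image m hw h5
      have hp : ∀ a b : K, pl (1 : K) a b ∈ PL (F := K) ∧ pl (1 : K) a b ≠ 0 := fun a b =>
        ⟨pl_mem .., (pl_isPt (by simp) hK).1⟩
      by_contra hne
      refine not_all_frames m hw h5 ?_ ?_ ?_
      · exact (same c (by simpa using s 0)).resolve_right fun h =>
          hne ⟨_, _, _, hp _ _, hp _ _, hp _ _, h⟩
      · exact (same c (by simpa using s 1)).resolve_right fun h =>
          hne ⟨_, _, _, hp _ _, hp _ _, hp _ _, h⟩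
      · exact (same c (by simpa using s 2)).resolve_right fun h =>
          hne ⟨_, _, _, hp _ _, hp _ _, hp _ _, h⟩
    have e1 := pl_isPt (F := K) (a := 1) (b := 0) (d := 0) (by simp) hK
    have e2 := pl_isPt (F := K) (a := 0) (b := 1) (d := 0) (by simp) hK
    have e3 := pl_isPt (F := K) (a := 0) (b := 0) (d := 1) (by simp) hK
    refine ⟨_, hsmem hp1, ([m.M.pt u₁ * k, m.M.pt u₂ * k, m.M.pt u₃ * k, m.M.pt (pl 1 0 0) * k,
      m.M.pt (pl 0 1 0) * k, m.M.pt (pl 0 0 1) * k, z] : List ↥C).map C.subtype, ⟨3, rfl⟩, ?_, ?_⟩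
    · intro y hy
      obtain ⟨y', hy', rfl⟩ := List.mem_map.1 hy
      have hm : y' ∈ A₀ ∧ Q y' := by
        have H : ∀ {v : Fin 6 → K}, v ∈ PL (F := K) → v ≠ 0 → m.M.pt v * k ∈ A₀ ∧ Q (m.M.pt v * k) :=
          fun h h0 => ⟨inA h h0, hkQ _ (P h h0)⟩
        simp only [List.mem_cons, List.not_mem_nil, or_false] at hy'
        rcases hy' with rfl | rfl | rfl | rfl | rfl | rfl | rfl
        exacts [H h1.1 h1.2, H h2.1 h2.2, H h3.1 h3.2, H (pl_mem ..) e1.1, H (pl_mem ..) e2.1,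
          H (pl_mem ..) e3.1, ⟨z_mem m _, IsConj.refl d⟩]
      exact ⟨hm.2, (Subgroup.mem_centralizer_singleton_iff.1 y'.2).symm,
        (h0c _ (inA (pl_mem ..) e1.1) _ hm.1).map C.subtype⟩
    · rw [← map_list_prod]
      refine (congrArg C.subtype ?_).trans (map_one _)
      simp only [List.prod_cons, List.prod_nil, mul_one]
      calc _ = (m.M.pt u₁ * k * (m.M.pt u₂ * k)) * (m.M.pt u₃ * k * (m.M.pt (pl 1 0 0) * k)) *
            (m.M.pt (pl 0 1 0) * k * (m.M.pt (pl 0 0 1) * k)) * z := by group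
        _ = (m.M.pt u₁ * m.M.pt u₂ * m.M.pt u₃) *
            (m.M.pt (pl 1 0 0) * m.M.pt (pl 0 1 0) * m.M.pt (pl 0 0 1)) * z := by
          rw [hkc2, hkc2, hkc2]; group
        _ = _ := by
          rw [he]
          refine (show ∀ f : ↥C, f * f = 1 → f * z * f * z = 1 from fun f hf => ?_) _ (h02 _ ?_)
          · rw [mul_assoc f z, (hzc f).eq, ← mul_assoc, hf, one_mul, zz c]
          · exact mul_mem (mul_mem (grp_le m _ (pt_mem m (pl_mem ..) e1.1))
              (grp_le m _ (pt_mem m (pl_mem ..) e2.1))) (grp_le m _ (pt_mem m (pl_mem ..) e3.1))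
  refine ⟨hconj, fun x hx y hy => ?_, fun x hx => ?_, fun x hx h1 => ?_, fun x hx => ?_,
    fun x hx g hg => ?_, fun x hx g hg hc => ?_, fun x hx => ?_⟩
  · exact isConj_iff.1 ((show IsConj d x from hx).symm.trans hy)
  all_goals obtain ⟨q, rfl⟩ := hto x hx
  · rw [show q * d * q⁻¹ * (q * d * q⁻¹) = q * (d * d) * q⁻¹ by group, hdd, mul_one, mul_inv_cancel]
  · exact hd1 (by rw [show d = q⁻¹ * (q * d * q⁻¹) * q by group, h1, mul_one, inv_mul_cancel])
  · obtain ⟨R⟩ := hR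
    exact pts_move hconj R q
  · have hg' : q⁻¹ * g * q ∈ C := by
      refine Subgroup.mem_centralizer_singleton_iff.2 ?_
      have := (Commute.conj_iff q⁻¹).2 hg
      simpa [mul_assoc] using this.eq.symm
    have h : (Subgroup.closure (Sset (conjugatesOf d) d)).map (MulAut.conj q).toMonoidHom ≤
        Subgroup.closure (Sset (conjugatesOf d) (q * d * q⁻¹)) := by
      rw [MonoidHom.map_closure]
      refine Subgroup.closure_mono ?_
      rintro _ ⟨y, hy, rfl⟩
      exact ⟨hconj q y hy.1, fun e => hy.2.1 (mul_left_cancel (mul_right_cancel e)),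
        (Commute.conj_iff q).2 hy.2.2⟩
    have := h ⟨_, hcl hg', rfl⟩
    rwa [MulEquiv.coe_toMonoidHom, MulAut.conj_apply, show q * (q⁻¹ * g * q) * q⁻¹ = g by group] at this
  · have hg' : q⁻¹ * g * q ∈ C := by
      refine Subgroup.mem_centralizer_singleton_iff.2 ?_
      have := (Commute.conj_iff q⁻¹).2 hg
      simpa [mul_assoc] using this.eq.symm
    rcases center_eq c m.hp m.ha (x := (⟨_, hg'⟩ : ↥C)) (fun y => Subtype.ext (by
        have hy : Commute (q * d * q⁻¹) (q * (y : G) * q⁻¹) :=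
          (Commute.conj_iff q).2 (Subgroup.mem_centralizer_singleton_iff.1 y.2).symm
        have := (Commute.conj_iff q⁻¹).2 (hc _ hy)
        simpa [mul_assoc] using this.eq)) with e | e
    · refine Or.inl ?_
      have := congrArg Subtype.val e
      simp only [Subgroup.coe_one] at this
      rw [show g = q * (q⁻¹ * g * q) * q⁻¹ by group, this, mul_one, mul_inv_cancel]
    · refine Or.inr ?_
      have e' : q⁻¹ * g * q = d := congrArg Subtype.val e
      rw [← e']; group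
  · obtain ⟨a, ha, l, hl, hl', hp⟩ := hrel
    refine ⟨q * a * q⁻¹, ⟨hconj q a ha.1, fun e => ha.2.1 (mul_left_cancel (mul_right_cancel e)),
      (Commute.conj_iff q).2 ha.2.2⟩, l.map (MulAut.conj q), by rwa [List.length_map], fun y hy => ?_, ?_⟩
    · obtain ⟨y', hy', rfl⟩ := List.mem_map.1 hy
      exact ⟨hconj q y' (hl' y' hy').1, (Commute.conj_iff q).2 (hl' y' hy').2.1,
        (Commute.conj_iff q).2 (hl' y' hy').2.2⟩
    · rw [← map_list_prod, hp, map_one]

end Cfsg.Agent.H98.M22Class
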