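import Cfsg.Agent.H98.M22Class.Local

/-! A non-commuting pair with a common partner has exactly 126 of them. -/

set_option autoImplicit false
set_option linter.unusedSectionVars false

open Cfsg
open Cfsg.Agent.H17.UPoints Cfsg.Agent.H43.FischerTwins
open Cfsg.Agent.H43.Polar (IsFrame toFrame vec ev fv cx cy pair Iso)
open Cfsg.Agent.H97.Uniq

namespace Cfsg.Agent.H98.M22Class

variable {G : Type*} [Group G] [Finite G] {D : Set G} {F : Type} [Field F] [Fintype F]
  [DecidableEq F] {hF : Fintype.card F = 4} (S : Star D F hF)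
include S

theorem Star.inv_eq {x : G} (hx : x ∈ D) : x⁻¹ = x := inv_eq_of_mul_eq_one_right (S.sq x hx)

omit S in
theorem sset_swap {x y : G} (hx : x ∈ D) (hy : y ∈ Sset D x) : x ∈ Sset D y :=
  ⟨hx, hy.2.1.symm, hy.2.2.symm⟩

omit S in
theorem com_swap {d c : G} {a : G} (h : a ∈ com D d c) : a ∈ com D c d := ⟨h.2, h.1⟩

theorem Star.sset_conj (g : G) {d y : G} (hy : y ∈ Sset D d) : g * y * g⁻¹ ∈ Sset D (g * d * g⁻¹) :=
  ⟨S.conj g y hy.1, fun e => hy.2.1 (mul_left_cancel (mul_right_cancel e)), (Commute.conj_iff g).2 hy.2.2⟩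

/-- Common partners are permuted by each other. -/
theorem Star.com_conj {d c p y : G} (hp : p ∈ com D d c) (hy : y ∈ com D d c) : p * y * p⁻¹ ∈ com D d c := by
  have h1 := S.sset_conj p hy.1
  have h2 := S.sset_conj p hy.2
  rw [hp.1.2.2.eq.symm, mul_inv_cancel_right] at h1
  rw [hp.2.2.2.eq.symm, mul_inv_cancel_right] at h2
  exact ⟨h1, h2⟩

/-- Non-commuting members with a common partner satisfy the braid relation. -/
theorem Star.braid {x y a : G} (hx : x ∈ D) (hy : y ∈ D) (hxy : ¬ Commute x y) (ha : a ∈ com D x y) :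
    x * y * x = y * x * y := by
  obtain ⟨R⟩ := S.models a ha.1.1
  obtain ⟨u, hu, huu, rfl⟩ := R.surj x (sset_swap hx ha.1)
  obtain ⟨v, hv, hvv, rfl⟩ := R.surj y (sset_swap hy ha.2)
  have hne : herm v u ≠ 0 := fun h => hxy ((R.commute u v hu huu hv hvv).2 ((herm_zero_comm hF).1 h))
  have h3 := cube hF hne
  have t1 := R.conj u v hu huu hv hvv
  have t2 := R.conj v u hv hvv hu huu
  rw [S.inv_eq hx] at t1
  rw [S.inv_eq hy] at t2
  have ht := third_iso hF huu hv hvv
  rw [t1, t2, ← herm_conj hF v u, ← R.smul ((herm v u) ^ 2) _ (pow_ne_zero _ hne) ht.1 ht.2]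
  congr 1
  rw [smul_add, smul_smul, show herm v u ^ 2 * herm v u = 1 by rw [pow_two]; exact h3, one_smul, add_comm]

/-- Forty-five of the common partners are next to each of them. -/
theorem Star.deg45 {d c a : G} (hd : d ∈ D) (hc : c ∈ D) (hdc : ¬ Commute d c) (ha : a ∈ com D d c) :
    ({b | b ∈ com D d c ∧ b ≠ a ∧ Commute a b}).ncard = 45 := by
  obtain ⟨w, -, -, hw⟩ := H43.exists_omega hF
  obtain ⟨R⟩ := S.models a ha.1.1
  rw [← R.card_pair hw (d := d) (q := c) (sset_swap hd ha.1) (sset_swap hc ha.2) hdc]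
  congr 1
  ext b
  constructor
  · rintro ⟨hb, hne, hab⟩
    exact ⟨⟨hb.1.1, hne, hab⟩, hb.1.2.2, hb.2.2.2⟩
  · rintro ⟨hb, h1, h2⟩
    exact ⟨⟨⟨hb.1, fun e => hdc (e ▸ h2).symm, h1⟩, ⟨hb.1, fun e => hdc (e ▸ h1), h2⟩⟩, hb.2.1, hb.2.2⟩

/-- Commuting common partners are at most six. -/
theorem Star.clique {d c : G} (hd : d ∈ D) (hc : c ∈ D) (hdc : ¬ Commute d c) {K : Set G}
    (hK : K ⊆ com D d c) (hKK : ∀ y ∈ K, ∀ z ∈ K, Commute y z) : K.ncard ≤ 6 := by
  rcases K.eq_empty_or_nonempty with rfl | ⟨k, hk⟩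
  · simp
  obtain ⟨w, -, -, hw⟩ := H43.exists_omega hF
  obtain ⟨R⟩ := S.models k (hK hk).1.1
  have h := pts_clique_pair hw R (sset_swap hd (hK hk).1) (sset_swap hc (hK hk).2) hdc (K := K \ {k})
    (fun y hy => ⟨(hK hy.1).1.1, hy.2, hKK k hk y hy.1⟩)
    (fun y hy => ⟨(hK hy.1).1.2.2, (hK hy.1).2.2.2⟩) (fun y hy z hz => hKK y hy.1 z hz.1)
  rw [Set.ncard_diff_singleton_of_mem hk] at h
  omega

/-- A common partner far from one of them commutes with two of each five on a line through it. -/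
theorem Star.two_of_five {d c a y : G} (hd : d ∈ D) (hc : c ∈ D) (hdc : ¬ Commute d c)
    (ha : a ∈ com D d c) (hy : y ∈ com D d c) (hay : ¬ Commute a y) {L : Set G} (hL : L ⊆ com D d c)
    (hLa : ∀ p ∈ L, p ≠ a ∧ Commute a p) (hLL : ∀ p ∈ L, ∀ q ∈ L, Commute p q) (h5 : L.ncard = 5) :
    2 ≤ ({p | p ∈ L ∧ Commute y p}).ncard := by
  classical
  haveI : Fintype G := Fintype.ofFinite G
  by_contra hlt
  push Not at hlt
  obtain ⟨R⟩ := S.models d hd
  obtain ⟨v, hv, hvv, hpy⟩ := R.surj y hy.1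
  set B : Finset G := Finset.univ.filter fun b => (b = a ∨ b ∈ L) ∧ ¬ Commute y b with hB
  set P0 : Set G := {p | p ∈ L ∧ Commute y p} with hP0
  have haB : a ∈ B := by simp [hB]; exact fun h => hay h.symm
  have hBX : ∀ b ∈ B, b ∈ com D d c ∧ ¬ Commute y b := fun b hb => by
    simp only [hB, Finset.mem_filter, Finset.mem_univ, true_and] at hb
    exact ⟨hb.1.elim (fun h => h ▸ ha) fun h => hL h, hb.2⟩
  have hcomm : ∀ p, p = a ∨ p ∈ L → ∀ q, q = a ∨ q ∈ L → Commute p q := by
    rintro p (rfl | hp) q (rfl | hq)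
    exacts [Commute.refl _, (hLa q hq).2, (hLa p hp).2.symm, hLL p hp q hq]
  have hBcard : B.card + P0.ncard = 6 := by
    have e : (B : Set G) ∪ P0 = insert a L := by
      ext p
      simp only [hB, hP0, Finset.coe_filter, Finset.mem_univ, true_and, Set.mem_union, Set.mem_setOf_eq,
        Set.mem_insert_iff]
      constructor
      · rintro (h | h)
        exacts [h.1, Or.inr h.1]
      · intro h
        by_cases hp : Commute y p
        · exact Or.inr ⟨h.resolve_left fun e => hay (e ▸ hp).symm, hp⟩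
        · exact Or.inl ⟨h, hp⟩
    have hdisj : Disjoint (B : Set G) P0 := Set.disjoint_left.2 fun p hp hp' =>
      (hBX p (Finset.mem_coe.1 hp)).2 hp'.2
    have := congrArg Set.ncard e
    rw [Set.ncard_union_eq hdisj (Set.toFinite _) (Set.toFinite _), Set.ncard_coe_finset,
      Set.ncard_insert_of_notMem (fun h => (hLa a h).1 rfl), h5] at this
    exact this
  have hq : ∀ b : B, ∃ q, q ≠ 0 ∧ herm q q = 0 ∧ R.pt q = (b : G) ∧ herm q v = 1 := by
    intro b
    obtain ⟨q, hq0, hqq, e⟩ := R.surj b (hBX b b.2).1.1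
    have hne : herm q v ≠ 0 := fun h => (hBX b b.2).2 (by
      rw [← hpy, ← e]; exact (R.commute v q hv hvv hq0 hqq).2 ((herm_zero_comm hF).1 h))
    obtain ⟨k, hk, hk1⟩ := H43.M22.exists_normalise hF hne
    exact ⟨k • q, smul_ne_zero hk hq0, by rw [herm_smul_left hF, herm_smul_right hF, hqq]; ring,
      by rw [R.smul k q hk hq0 hqq, e], hk1⟩
  choose q q0 qq qp qv using hq
  have vq : ∀ b, herm v (q b) = 1 := fun b => by rw [← herm_conj hF, qv, one_pow]
  have qh : ∀ b b' : B, herm (q b) (q b') = 0 := fun b b' => by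
    refine (R.commute _ _ (q0 b) (qq b) (q0 b') (qq b')).1 ?_
    rw [qp, qp]
    have hb := b.2
    have hb' := b'.2
    simp only [hB, Finset.mem_filter, Finset.mem_univ, true_and] at hb hb'
    exact hcomm _ hb.1 _ hb'.1
  have qinj : Function.Injective q := fun b b' e => Subtype.ext (by rw [← qp b, ← qp b', e])
  let K : Set G := (fun z : B × B => R.pt (v + (q z.1 + q z.2))) '' Set.univ ∪ P0
  have hz : ∀ i j : B, (v + (q i + q j) ≠ 0 ∧ herm (v + (q i + q j)) (v + (q i + q j)) = 0) ∧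
      R.pt (v + (q i + q j)) ∈ com D d c := by
    intro i j
    have t1 := third_iso hF (qq i) hv hvv
    have c1 := R.conj (q i) v (q0 i) (qq i) hv hvv
    rw [vq, one_smul] at t1 c1
    have t2 := third_iso hF (qq j) t1.1 t1.2
    have c2 := R.conj (q j) _ (q0 j) (qq j) t1.1 t1.2
    rw [herm_add_left hF, vq, qh, add_zero, one_smul] at t2 c2
    rw [add_assoc] at t2 c2
    refine ⟨t2, ?_⟩
    rw [← c2, ← c1, hpy, qp, qp]
    exact S.com_conj (hBX j j.2).1 (S.com_conj (hBX i i.2).1 hy)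
  have h00 : ∀ i j k l : B, herm (v + (q i + q j)) (v + (q k + q l)) = 0 := fun i j k l => by
    simp only [herm_add_left hF, herm_add_right hF, hvv, vq, qv, qh]
    linear_combination 2 * add_self hF (1 : F)
  have P0h : ∀ p ∈ P0, ∃ u, u ≠ 0 ∧ herm u u = 0 ∧ R.pt u = p ∧ herm u v = 0 ∧ ∀ b, herm u (q b) = 0 := by
    intro p hp
    obtain ⟨u, hu, huu, e⟩ := R.surj p (hL hp.1).1
    refine ⟨u, hu, huu, e, (R.commute u v hu huu hv hvv).1 (by rw [e, hpy]; exact hp.2.symm), fun b => ?_⟩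
    refine (R.commute u _ hu huu (q0 b) (qq b)).1 ?_
    rw [e, qp]
    have hb := b.2
    simp only [hB, Finset.mem_filter, Finset.mem_univ, true_and] at hb
    exact hcomm _ (Or.inr hp.1) _ hb.1
  have hK : K ⊆ com D d c := by
    rintro _ (⟨z, -, rfl⟩ | h)
    exacts [(hz z.1 z.2).2, hL h.1]
  have hKK : ∀ s ∈ K, ∀ t ∈ K, Commute s t := by
    have mix : ∀ (i j : B), ∀ p ∈ P0, Commute (R.pt (v + (q i + q j))) p := by
      intro i j p hp
      obtain ⟨u, hu, huu, rfl, h1, h2⟩ := P0h p hp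
      refine (R.commute _ _ (hz i j).1.1 (hz i j).1.2 hu huu).2 ((herm_zero_comm hF).1 ?_)
      rw [herm_add_right hF, herm_add_right hF, h1, h2, h2]; ring
    rintro _ (⟨z, -, rfl⟩ | hs) _ (⟨z', -, rfl⟩ | ht)
    · exact (R.commute _ _ (hz z.1 z.2).1.1 (hz z.1 z.2).1.2 (hz z'.1 z'.2).1.1 (hz z'.1 z'.2).1.2).2
        (h00 _ _ _ _)
    · exact mix _ _ _ ht
    · exact (mix _ _ _ hs).symm
    · exact hLL _ hs.1 _ ht.1
  have h6 := S.clique hd hc hdc hK hKK
  let b0 : B := ⟨a, haB⟩
  have neg : ∀ u : Fin 6 → F, u + u = 0 := fun u => funext fun i => add_self hF (u i)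
  have ptinj : ∀ i j k l : B, R.pt (v + (q i + q j)) = R.pt (v + (q k + q l)) → q i + q j = q k + q l := by
    intro i j k l e
    obtain ⟨s, hs, es⟩ := R.inj _ _ (hz i j).1.1 (hz i j).1.2 (hz k l).1.1 (hz k l).1.2 e
    have h := congrArg (fun u => herm u (q b0)) es
    simp only [herm_add_left hF, herm_smul_left hF, vq, qh, add_zero, mul_one] at h
    rw [← h, one_smul] at es
    exact add_left_cancel es
  -- the sums with one point form a group
  let base : Set G := Set.range fun b : B => R.pt (v + (q b0 + q b))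
  have hbase : base.ncard = B.card := by
    rw [Set.ncard_range_of_injective fun i j e => qinj (add_left_cancel (ptinj _ _ _ _ e)),
      Nat.card_eq_fintype_card, Fintype.card_coe]
  have hbd : Disjoint base P0 := by
    refine Set.disjoint_left.2 ?_
    rintro _ ⟨b, rfl⟩ hp
    obtain ⟨u, hu, huu, e, h1, h2⟩ := P0h _ hp
    obtain ⟨s, hs, es⟩ := R.inj u _ hu huu (hz b0 b).1.1 (hz b0 b).1.2 e
    have h := h2 b0
    rw [es, herm_smul_left hF, herm_add_left hF, herm_add_left hF, vq, qh, qh, add_zero, add_zero, mul_one] at h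
    exact hs h
  have hsub : base ∪ P0 ⊆ K := Set.union_subset_union_left _ (by
    rintro _ ⟨b, rfl⟩; exact ⟨(b0, b), trivial, rfl⟩)
  have heq : base ∪ P0 = K := Set.eq_of_subset_of_ncard_le hsub (by
    rw [Set.ncard_union_eq hbd (Set.toFinite _) (Set.toFinite _), hbase]; omega) (Set.toFinite _)
  have hclosed : ∀ i j : B, ∃ k : B, q i + q j = q b0 + q k := by
    intro i j
    have hm : R.pt (v + (q i + q j)) ∈ base ∪ P0 := heq.ge (Or.inl ⟨(i, j), trivial, rfl⟩)
    rcases hm with ⟨k, hk⟩ | hp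
    · exact ⟨k, ptinj _ _ _ _ hk.symm⟩
    obtain ⟨u, hu, huu, e, h1, h2⟩ := P0h _ hp
    obtain ⟨s, hs, es⟩ := R.inj u _ hu huu (hz i j).1.1 (hz i j).1.2 e
    have h := h2 b0
    rw [es, herm_smul_left hF, herm_add_left hF, herm_add_left hF, vq, qh, qh, add_zero, add_zero, mul_one] at h
    exact absurd h hs
  let A : AddSubgroup (Fin 6 → F) :=
    { carrier := Set.range fun b : B => q b0 + q b
      zero_mem' := ⟨b0, neg _⟩
      add_mem' := by
        rintro _ _ ⟨i, rfl⟩ ⟨j, rfl⟩
        obtain ⟨k, hk⟩ := hclosed i j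
        exact ⟨k, by
          show q b0 + q k = q b0 + q i + (q b0 + q j)
          rw [← hk, add_add_add_comm, neg, zero_add]⟩
      neg_mem' := by
        rintro _ ⟨i, rfl⟩
        exact ⟨i, (neg_eq_of_add_eq_zero_right (neg _)).symm⟩ }
  have hA : Nat.card A = B.card := by
    show Nat.card (Set.range fun b : B => q b0 + q b) = _
    rw [Nat.card_coe_set_eq, Set.ncard_range_of_injective fun i j e => qinj (add_left_cancel e),
      Nat.card_eq_fintype_card, Fintype.card_coe]
  have hdiv := A.card_addSubgroup_dvd_card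
  rw [hA, Nat.card_fun, Nat.card_eq_fintype_card (α := F), hF, Nat.card_eq_fintype_card, Fintype.card_fin] at hdiv
  have : B.card = 5 ∨ B.card = 6 := by omega
  rcases this with e | e <;> rw [e] at hdiv <;> norm_num at hdiv

/-- Each common partner far from a fixed one commutes with eighteen of its forty-five. -/
theorem Star.eighteen {d c a y : G} (hd : d ∈ D) (hc : c ∈ D) (hdc : ¬ Commute d c)
    (ha : a ∈ com D d c) (hy : y ∈ com D d c) (hay : ¬ Commute a y) :
    18 ≤ ({p | p ∈ com D d c ∧ p ≠ a ∧ Commute a p ∧ Commute y p}).ncard := by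
  classical
  haveI : Fintype G := Fintype.ofFinite G
  obtain ⟨w, hw0, hw1, hw⟩ := H43.exists_omega hF
  obtain ⟨Ra⟩ := S.models a ha.1.1
  have hdA := sset_swap hd ha.1
  have hcA := sset_swap hc ha.2
  set W : Finset G := Finset.univ.filter fun p => p ∈ com D d c ∧ p ≠ a ∧ Commute a p with hW
  set N := W.filter fun p => Commute y p with hN
  have hWcard : W.card = 45 := by
    rw [← S.deg45 hd hc hdc ha, Set.ncard_eq_toFinset_card']
    congr 1; ext p; simp [hW]; tauto
  have toW : ∀ b, b ∈ Sset D a → Commute d b → Commute c b → b ∈ W := fun b hb h1 h2 => by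
    simp only [hW, Finset.mem_filter, Finset.mem_univ, true_and]
    exact ⟨⟨⟨hb.1, fun e => hdc (e ▸ h2).symm, h1⟩, ⟨hb.1, fun e => hdc (e ▸ h1), h2⟩⟩, hb.2.1, hb.2.2⟩
  let r : G → G → Prop := fun p b => p ≠ b ∧ Commute p b
  have h12 : ∀ p ∈ W, (W.filter (r p)).card ≤ 12 := by
    intro p hp
    simp only [hW, Finset.mem_filter, Finset.mem_univ, true_and] at hp
    have h := pts_card_pair_pt hw Ra hdA hcA ⟨hp.1.1.1, hp.2.1, hp.2.2⟩ hdc hp.1.1.2.2 hp.1.2.2.2
    have hsub : ((W.filter (r p) : Finset G) : Set G) ⊆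
        {b | b ∈ Sset D a ∧ Commute d b ∧ Commute c b ∧ Commute p b} \ {p} := by
      intro b hb
      simp only [hW, r, Finset.coe_filter, Finset.mem_filter, Finset.mem_univ, true_and, Set.mem_setOf_eq] at hb
      exact ⟨⟨⟨hb.1.1.1.1, hb.1.2.1, hb.1.2.2⟩, hb.1.1.1.2.2, hb.1.1.2.2.2, hb.2.2⟩, fun e => hb.2.1 e.symm⟩
    have h' := Set.ncard_le_ncard hsub (Set.toFinite _)
    rw [Set.ncard_coe_finset, Set.ncard_diff_singleton_of_mem (show p ∈
      {b | b ∈ Sset D a ∧ Commute d b ∧ Commute c b ∧ Commute p b} from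
      ⟨⟨hp.1.1.1, hp.2.1, hp.2.2⟩, hp.1.1.2.2, hp.1.2.2.2, Commute.refl p⟩), h] at h'
    omega
  have hlines : ∀ p ∈ W, ∀ n, (∀ L : Set G, L ⊆ com D d c → (∀ q ∈ L, q ≠ a ∧ Commute a q) →
      (∀ q ∈ L, ∀ q' ∈ L, Commute q q') → L.ncard = 5 → p ∈ L →
      n ≤ ({q | q ∈ L ∧ q ≠ p ∧ q ∈ N}).ncard) → 3 * n ≤ (N.filter (r p)).card := by
    intro p hp n hn
    simp only [hW, Finset.mem_filter, Finset.mem_univ, true_and] at hp
    obtain ⟨R, ed, ec, ep⟩ := Ra.exists_at_pair_pt hw hdA hcA ⟨hp.1.1.1, hp.2.1, hp.2.2⟩ hdc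
      hp.1.1.2.2 hp.1.2.2.2
    have i0 := iso_std hF hw 0
    have i1 := iso_std hF hw 1
    have i2 := iso_std hF hw 2
    have hs := herm_std hF hw
    have s22 : herm (ev w 2) (fv w 2) = 1 := (hs 2 2).2.2.1.trans (if_pos rfl)
    have s22' : herm (fv w 2) (ev w 2) = 1 := (hs 2 2).2.2.2.trans (if_pos rfl)
    have s11 : herm (ev w 1) (fv w 1) = 1 := (hs 1 1).2.2.1.trans (if_pos rfl)
    let T : Fin 3 → Fin 6 → F := ![ev w 2, fv w 2, ev w 2 + fv w 2]
    have hT : ∀ j, herm (T j) (T j) = 0 ∧ herm (T j) (ev w 0) = 0 ∧ herm (T j) (fv w 0) = 0 ∧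
        herm (T j) (ev w 1) = 0 ∧ herm (T j) (fv w 1) = 0 := by
      intro j
      fin_cases j <;>
        simp [T, herm_add_left hF, herm_add_right hF, (hs _ _).1, (hs _ _).2.1, (hs _ _).2.2.1, (hs _ _).2.2.2,
          add_self hF (1 : F)]
    have hsig : ∀ i j (k : F), herm (T i) (ev w 2) = k * herm (T j) (ev w 2) →
        herm (T i) (fv w 2) = k * herm (T j) (fv w 2) → i = j ∧ k = 1 := by
      intro i j k h1 h2
      fin_cases i <;> fin_cases j <;>
        simp [T, herm_add_left hF, (hs _ _).1, (hs _ _).2.1, s22, s22'] at h1 h2 ⊢ <;>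
        first | exact h1.symm | exact h2.symm | exact absurd (h1.symm.trans h2) (by norm_num) |
          exact zero_ne_one (h1.trans h2.symm) | exact zero_ne_one (h2.trans h1.symm) |
          (rw [h1] at h2; exact zero_ne_one h2.symm) | (rw [h2] at h1; exact zero_ne_one h1.symm)
    let vv : Fin 3 × F → Fin 6 → F := fun z => T z.1 + z.2 • ev w 1
    have hvv0 : ∀ z, herm (vv z) (vv z) = 0 ∧ herm (vv z) (ev w 0) = 0 ∧ herm (vv z) (fv w 0) = 0 ∧
        herm (vv z) (ev w 1) = 0 := by
      intro z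
      obtain ⟨a1, a2, a3, a4, a5⟩ := hT z.1
      have b1 : herm (ev w 1) (T z.1) = 0 := (herm_zero_comm hF).1 a4
      simp only [vv, herm_add_left hF, herm_add_right hF, herm_smul_left hF, herm_smul_right hF, a1, a2, a3, a4,
        b1, (hs 1 0).1, (hs 1 1).1, show herm (ev w 1) (fv w 0) = 0 from (hs 1 0).2.2.1.trans (if_neg (by decide))]
      simp
    have hvne : ∀ z, vv z ≠ 0 := by
      intro z e
      have h1 := congrArg (fun u => herm u (ev w 2)) e
      have h2 := congrArg (fun u => herm u (fv w 2)) e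
      simp only [vv, herm_add_left hF, herm_smul_left hF, (hs 1 2).1,
        show herm (ev w 1) (fv w 2) = 0 from (hs 1 2).2.2.1.trans (if_neg (by decide)), mul_zero, add_zero,
        show (0 : Fin 6 → F) = (0 : F) • ev w 0 by rw [zero_smul], zero_mul] at h1 h2
      have := hsig z.1 z.1 0 (by rw [h1, zero_mul]) (by rw [h2, zero_mul])
      exact zero_ne_one this.2
    let f : Fin 3 × F → G := fun z => R.pt (vv z)
    have finj : Function.Injective f := by
      intro z z' e
      obtain ⟨k, hk, ek⟩ := R.inj _ _ (hvne z) (hvv0 z).1 (hvne z') (hvv0 z').1 e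
      have h1 := congrArg (fun u => herm u (ev w 2)) ek
      have h2 := congrArg (fun u => herm u (fv w 2)) ek
      have h3 := congrArg (fun u => herm u (fv w 1)) ek
      simp only [vv, herm_add_left hF, herm_smul_left hF, (hs 1 2).1,
        show herm (ev w 1) (fv w 2) = 0 from (hs 1 2).2.2.1.trans (if_neg (by decide)), mul_zero, add_zero,
        (hT _).2.2.2.2, s11, mul_one, zero_add] at h1 h2 h3
      obtain ⟨e1, rfl⟩ := hsig _ _ k h1 h2
      exact Prod.ext e1 (by rw [h3, one_mul])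
    have fne : ∀ z, f z ≠ p := by
      intro z e
      rw [← ep] at e
      obtain ⟨k, hk, ek⟩ := R.inj _ _ (hvne z) (hvv0 z).1 i1.1.1 i1.1.2 e
      have h1 := congrArg (fun u => herm u (ev w 2)) ek
      have h2 := congrArg (fun u => herm u (fv w 2)) ek
      simp only [vv, herm_add_left hF, herm_smul_left hF, (hs 1 2).1,
        show herm (ev w 1) (fv w 2) = 0 from (hs 1 2).2.2.1.trans (if_neg (by decide)), mul_zero, add_zero] at h1 h2
      exact zero_ne_one (hsig z.1 z.1 0 (by rw [h1, zero_mul]) (by rw [h2, zero_mul])).2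
    have fp : ∀ z, Commute p (f z) := fun z => by
      rw [← ep]
      exact (R.commute _ _ i1.1.1 i1.1.2 (hvne z) (hvv0 z).1).2 ((herm_zero_comm hF).1 (hvv0 z).2.2.2)
    have fW : ∀ z, f z ∈ W := fun z => toW _ (R.mem _ (hvne z) (hvv0 z).1)
      (by rw [← ed]; exact (R.commute _ _ i0.1.1 i0.1.2 (hvne z) (hvv0 z).1).2 ((herm_zero_comm hF).1 (hvv0 z).2.1))
      (by rw [← ec]; exact (R.commute _ _ i0.2.1 i0.2.2 (hvne z) (hvv0 z).1).2 ((herm_zero_comm hF).1 (hvv0 z).2.2.1))
    have fj : ∀ (j : Fin 3), n ≤ (Finset.univ.filter fun l : F => f (j, l) ∈ N).card := by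
      intro j
      have hL := hn (insert p (Set.range fun l : F => f (j, l))) ?_ ?_ ?_ ?_ (Set.mem_insert _ _)
      · refine hL.trans ?_
        have hsub : {q | q ∈ insert p (Set.range fun l : F => f (j, l)) ∧ q ≠ p ∧ q ∈ N} ⊆
            (fun l : F => f (j, l)) '' {l | f (j, l) ∈ N} := by
          rintro q ⟨hq, hqp, hqN⟩
          obtain ⟨l, rfl⟩ := hq.resolve_left hqp
          exact ⟨l, hqN, rfl⟩
        refine (Set.ncard_le_ncard hsub (Set.toFinite _)).trans ((Set.ncard_image_le (Set.toFinite _)).trans ?_)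
        rw [Set.ncard_eq_toFinset_card']
        simp
      · rintro q (rfl | ⟨l, rfl⟩)
        · exact hp.1
        · have := fW (j, l); simp only [hW, Finset.mem_filter] at this; exact this.2.1
      · rintro q (rfl | ⟨l, rfl⟩)
        · exact hp.2
        · have := fW (j, l); simp only [hW, Finset.mem_filter] at this; exact this.2.2
      · rintro q (rfl | ⟨l, rfl⟩) q' (rfl | ⟨l', rfl⟩)
        · exact Commute.refl _
        · exact fp _
        · exact (fp _).symm
        · refine (R.commute _ _ (hvne _) (hvv0 _).1 (hvne _) (hvv0 _).1).2 ?_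
          obtain ⟨a1, -, -, a4, -⟩ := hT j
          simp only [vv, herm_add_left hF, herm_add_right hF, herm_smul_left hF, herm_smul_right hF, a1, a4,
            (herm_zero_comm hF).1 a4, (hs 1 1).1]
          ring
      · rw [Set.ncard_insert_of_notMem, Set.ncard_range_of_injective fun l l' e => (Prod.mk.injEq _ _ _ _ ▸ finj e).2,
          Nat.card_eq_fintype_card, hF]
        rintro ⟨l, hl⟩
        exact fne _ hl
    calc 3 * n = ∑ _j : Fin 3, n := by rw [Finset.sum_const, Finset.card_univ, Fintype.card_fin, smul_eq_mul]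
      _ ≤ ∑ j : Fin 3, (Finset.univ.filter fun l : F => f (j, l) ∈ N).card := Finset.sum_le_sum fun j _ => fj j
      _ = (Finset.univ.filter fun z : Fin 3 × F => f z ∈ N).card := by
        simp only [Finset.card_filter]
        rw [Fintype.sum_prod_type]
      _ ≤ (N.filter (r p)).card := Finset.card_le_card_of_injOn f (fun z hz => by
          simp only [Finset.coe_filter, Finset.mem_univ, true_and, Set.mem_setOf_eq] at hz
          simp only [Finset.coe_filter, Set.mem_setOf_eq, r]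
          exact ⟨hz, (fne z).symm, fp z⟩) finj.injOn
  have hLy : ∀ p ∈ W, ∀ L : Set G, L ⊆ com D d c → (∀ q ∈ L, q ≠ a ∧ Commute a q) →
      (∀ q ∈ L, ∀ q' ∈ L, Commute q q') → L.ncard = 5 → p ∈ L →
      2 ≤ ({q | q ∈ L ∧ q ≠ p ∧ q ∈ N}).ncard + (if p ∈ N then 1 else 0) := by
    intro p hp L h1 h2 h3 h4 h5
    refine (S.two_of_five hd hc hdc ha hy hay h1 h2 h3 h4).trans ?_
    have inN : ∀ q ∈ L, Commute y q → q ∈ N := fun q hq hyq => by
      simp only [hN, hW, Finset.mem_filter, Finset.mem_univ, true_and]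
      exact ⟨⟨h1 hq, h2 q hq⟩, hyq⟩
    split_ifs with hpN
    · refine le_trans (Set.ncard_le_ncard (t := insert p {q | q ∈ L ∧ q ≠ p ∧ q ∈ N}) ?_ (Set.toFinite _))
        (Set.ncard_insert_le _ _)
      intro q hq
      by_cases e : q = p
      · exact Or.inl e
      · exact Or.inr ⟨hq.1, e, inN q hq.1 hq.2⟩
    · refine le_trans (Set.ncard_le_ncard ?_ (Set.toFinite _)) (Nat.le_add_right _ _)
      intro q hq
      exact ⟨hq.1, fun e => hpN (e ▸ inN q hq.1 hq.2), inN q hq.1 hq.2⟩
  have out6 : ∀ p ∈ W \ N, 6 ≤ (N.filter (r p)).card := fun p hp => by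
    rw [Finset.mem_sdiff] at hp
    refine hlines p hp.1 2 fun L h1 h2 h3 h4 h5 => ?_
    have := hLy p hp.1 L h1 h2 h3 h4 h5
    rwa [if_neg hp.2, add_zero] at this
  have in3 : ∀ p ∈ N, 3 ≤ (N.filter (r p)).card := fun p hp => by
    have hpW : p ∈ W := (Finset.mem_filter.1 hp).1
    refine hlines p hpW 1 fun L h1 h2 h3 h4 h5 => ?_
    have := hLy p hpW L h1 h2 h3 h4 h5
    rw [if_pos hp] at this
    omega
  have hNW : N ⊆ W := Finset.filter_subset _ _
  have key := Finset.card_mul_le_card_mul (r := r) (s := W \ N) (t := N) (m := 6) (n := 9)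
    (fun p hp => out6 p hp) fun b hb => by
      have h1 := h12 b (hNW hb)
      have h2 := in3 b hb
      have e : ((W \ N).filter fun p => r p b).card + (N.filter (r b)).card ≤ (W.filter (r b)).card := by
        rw [← Finset.card_union_of_disjoint]
        · refine Finset.card_le_card ?_
          intro p hp
          rw [Finset.mem_union, Finset.mem_filter, Finset.mem_filter, Finset.mem_sdiff] at hp
          rcases hp with ⟨⟨hp, -⟩, hne, hpb⟩ | ⟨hp, hr⟩
          · exact Finset.mem_filter.2 ⟨hp, hne.symm, hpb.symm⟩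
          · exact Finset.mem_filter.2 ⟨hNW hp, hr⟩
        · exact Finset.disjoint_left.2 fun p hp hp' =>
            (Finset.mem_sdiff.1 (Finset.mem_filter.1 hp).1).2 (Finset.mem_filter.1 hp').1
      show ((W \ N).filter fun p => r p b).card ≤ 9
      omega
  rw [Finset.card_sdiff_of_subset hNW, hWcard] at key
  have hle : N.card ≤ 45 := hWcard ▸ Finset.card_le_card hNW
  rw [show {p | p ∈ com D d c ∧ p ≠ a ∧ Commute a p ∧ Commute y p} = (N : Set G) by
    ext p; simp [hN, hW, and_assoc], Set.ncard_coe_finset]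
  omega

/-- At most 126 common partners. -/
theorem Star.le126 {d c : G} (hd : d ∈ D) (hc : c ∈ D) (hdc : ¬ Commute d c) :
    (com D d c).ncard ≤ 126 := by
  classical
  haveI : Fintype G := Fintype.ofFinite G
  rcases (com D d c).eq_empty_or_nonempty with h | ⟨a, ha⟩
  · rw [h]; simp
  obtain ⟨w, -, -, hw⟩ := H43.exists_omega hF
  set X : Finset G := (com D d c).toFinset with hX
  set R : Finset G := X.filter fun y => ¬ Commute a y with hR
  set W : Finset G := X.filter fun p => p ≠ a ∧ Commute a p with hW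
  have hWcard : W.card = 45 := by
    rw [← S.deg45 hd hc hdc ha, Set.ncard_eq_toFinset_card']
    congr 1; ext p; simp [hW, hX]; tauto
  have key := Finset.card_mul_le_card_mul (r := fun y p => Commute y p) (s := R) (t := W) (m := 18) (n := 32)
    (fun y hy => by
      simp only [hR, hX, Finset.mem_filter, Set.mem_toFinset] at hy
      refine (S.eighteen hd hc hdc ha hy.1 hy.2).trans (le_of_eq ?_)
      rw [Set.ncard_eq_toFinset_card', Finset.bipartiteAbove]
      congr 1; ext p; simp [hW, hX, and_assoc]; tauto)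
    (fun p hp => by
      simp only [hW, hX, Finset.mem_filter, Set.mem_toFinset] at hp
      obtain ⟨Ra⟩ := S.models a ha.1.1
      have h13 := pts_card_pair_pt hw Ra (sset_swap hd ha.1) (sset_swap hc ha.2)
        ⟨hp.1.1.1, hp.2.1, hp.2.2⟩ hdc hp.1.1.2.2 hp.1.2.2.2
      have h45 := S.deg45 hd hc hdc hp.1
      let Y : Set G := {b | b ∈ Sset D a ∧ Commute d b ∧ Commute c b ∧ Commute p b} \ {p}
      have hY : Y.ncard = 12 := by
        rw [Set.ncard_diff_singleton_of_mem (show p ∈ {b | b ∈ Sset D a ∧ Commute d b ∧ Commute c b ∧ Commute p b}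
          from ⟨⟨hp.1.1.1, hp.2.1, hp.2.2⟩, hp.1.1.2.2, hp.1.2.2.2, Commute.refl p⟩), h13]
      have haY : a ∉ Y := fun h => h.1.1.2.1 rfl
      let Z : Set G := {y | y ∈ com D d c ∧ ¬ Commute a y ∧ Commute y p}
      have hsub : insert a Y ∪ Z ⊆ {b | b ∈ com D d c ∧ b ≠ p ∧ Commute p b} := by
        rintro b ((rfl | hb) | hb)
        · exact ⟨ha, hp.2.1.symm, hp.2.2.symm⟩
        · exact ⟨⟨⟨hb.1.1.1, fun e => hdc (e ▸ hb.1.2.2.1).symm, hb.1.2.1⟩,
            ⟨hb.1.1.1, fun e => hdc (e ▸ hb.1.2.1), hb.1.2.2.1⟩⟩, hb.2, hb.1.2.2.2⟩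
        · exact ⟨hb.1, fun e => hb.2.1 (e ▸ hp.2.2), hb.2.2.symm⟩
      have hdisj : Disjoint (insert a Y) Z := by
        refine Set.disjoint_left.2 ?_
        rintro b (rfl | hb) hz
        exacts [hz.2.1 (Commute.refl _), hz.2.1 hb.1.1.2.2]
      have h := Set.ncard_le_ncard hsub (Set.toFinite _)
      rw [Set.ncard_union_eq hdisj (Set.toFinite _) (Set.toFinite _), Set.ncard_insert_of_notMem haY, hY, h45] at h
      refine le_trans (le_of_eq ?_) (show Z.ncard ≤ 32 by omega)
      rw [Set.ncard_eq_toFinset_card', Finset.bipartiteBelow]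
      congr 1; ext y; simp [Z, hR, hX, and_assoc]; tauto)
  have hsplit : X ⊆ insert a (W ∪ R) := fun y hy => by
    by_cases e : y = a
    · exact Finset.mem_insert.2 (Or.inl e)
    · refine Finset.mem_insert.2 (Or.inr (Finset.mem_union.2 ?_))
      by_cases hc' : Commute a y
      · exact Or.inl (Finset.mem_filter.2 ⟨hy, e, hc'⟩)
      · exact Or.inr (Finset.mem_filter.2 ⟨hy, hc'⟩)
  have h := (Finset.card_le_card hsplit).trans ((Finset.card_insert_le _ _).trans
    (Nat.add_le_add_right (Finset.card_union_le _ _) 1))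
  rw [Set.ncard_eq_toFinset_card', ← hX]
  omega

end Cfsg.Agent.H98.M22Class
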