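import Cfsg.Agent.H98.M22Class.Bound

/-! The component of a member: itself, its star and the members at distance two, 3510 in all. -/

set_option autoImplicit false
set_option linter.unusedSectionVars false

open Cfsg
open Cfsg.Agent.H17.UPoints Cfsg.Agent.H43.FischerTwins
open Cfsg.Agent.H43.Polar (IsFrame toFrame vec ev fv cx cy pair Iso)
open Cfsg.Agent.H97.Uniq

namespace Cfsg.Agent.H98.M22Class

/-- The members at distance two. -/
def Gam2 {G : Type*} [Group G] (D : Set G) (d : G) : Set G :=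
  {c | c ∈ D ∧ ¬ Commute d c ∧ (com D d c).Nonempty}

/-- The component. -/
def Comp {G : Type*} [Group G] (D : Set G) (d : G) : Set G := insert d (Sset D d ∪ Gam2 D d)

variable {G : Type*} [Group G] [Finite G] {D : Set G} {F : Type} [Field F] [Fintype F]
  [DecidableEq F] {hF : Fintype.card F = 4} (S : Star D F hF)
include S

theorem Star.regular {d c : G} (hd : d ∈ D) (hc : c ∈ D) (hdc : ¬ Commute d c) (hne : (com D d c).Nonempty) :
    (com D d c).ncard = 126 ∧ ∀ z ∈ Sset D d, z ∉ com D d c → ∃ a ∈ com D d c, Commute z a := by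
  classical
  haveI : Fintype G := Fintype.ofFinite G
  obtain ⟨w, -, -, hw⟩ := H43.exists_omega hF
  obtain ⟨R⟩ := S.models d hd
  let Rel : G → G → Prop := fun a b => a ≠ b ∧ Commute a b
  have hK : com D d c ⊆ Sset D d := fun _ h => h.1
  have key := regular_subset Rel (Sset D d).toFinset (com D d c).toFinset (Set.toFinset_subset_toFinset.2 hK)
    (by simpa using hne) (by rw [← Set.ncard_eq_toFinset_card', pts_card_star R])
    (by rw [← Set.ncard_eq_toFinset_card']; exact S.le126 hd hc hdc) (fun a b h => ⟨h.1.symm, h.2.symm⟩)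
    (fun a h => h.1 rfl)
    (fun a ha => by
      have ha' := hK (Set.mem_toFinset.1 ha)
      rw [show 180 = ({z | z ∈ Sset D d ∧ Commute a z} \ {a}).ncard by
        rw [Set.ncard_diff_singleton_of_mem (show a ∈ {z | z ∈ Sset D d ∧ Commute a z} from
          ⟨ha', Commute.refl a⟩), pts_card_perp hw R ha'], Set.ncard_eq_toFinset_card']
      congr 1; ext z; simp [Rel]; tauto)
    (fun a ha => by
      rw [← S.deg45 hd hc hdc (Set.mem_toFinset.1 ha), Set.ncard_eq_toFinset_card']
      congr 1; ext z; simp [Rel, ne_comm]; tauto)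
    (fun a ha b hb hab => by
      rw [Set.mem_toFinset] at ha hb
      obtain ⟨Y, hY⟩ : ∃ Y, Y = {z | z ∈ Sset D d ∧ Commute a z ∧ Commute b z} := ⟨_, rfl⟩
      have e : ((Sset D d).toFinset.filter fun z => Rel a z ∧ Rel b z).card = (Y \ {a, b}).ncard := by
        rw [Set.ncard_eq_toFinset_card']
        congr 1; ext z; simp [Rel, hY, eq_comm (a := z)]; tauto
      rw [e]
      by_cases hab' : Commute a b
      · rw [if_pos ⟨hab, hab'⟩, Set.ncard_diff (by
          rintro z (rfl | rfl) <;> rw [hY]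
          exacts [⟨hK ha, Commute.refl _, hab'.symm⟩, ⟨hK hb, hab', Commute.refl _⟩]),
          Set.ncard_pair hab, hY, R.card_line hw (hK ha) (hK hb) hab' hab]
      · rw [if_neg fun h => hab' h.2, show Y \ {a, b} = Y by
          ext z
          refine ⟨fun hz => hz.1, fun hz => ⟨hz, ?_⟩⟩
          rw [hY] at hz
          rintro (rfl | rfl)
          exacts [hab' hz.2.2.symm, hab' hz.2.1], hY, R.card_pair hw (hK ha) (hK hb) hab'])
  rw [← Set.ncard_eq_toFinset_card'] at key
  refine ⟨key.1, fun z hz hzK => ?_⟩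
  obtain ⟨a, ha, -, h⟩ := key.2 z (by simp [hz, hzK])
  exact ⟨a, Set.mem_toFinset.1 ha, h⟩

omit S in
theorem gam2_symm {d c : G} (hd : d ∈ D) (hc : c ∈ Gam2 D d) : d ∈ Gam2 D c :=
  ⟨hd, fun h => hc.2.1 h.symm, hc.2.2.imp fun _ h => com_swap h⟩

theorem Star.comp_subset {d : G} (hd : d ∈ D) : Comp D d ⊆ D := by
  rintro c (rfl | hc | hc)
  exacts [hd, hc.1, hc.1]

omit S in
theorem comp_self (d : G) : d ∈ Comp D d := Or.inl rfl

omit S in
theorem comp_of_sset {d c : G} (h : c ∈ Sset D d) : c ∈ Comp D d := Or.inr (Or.inl h)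

omit S in
theorem comp_commute {d c : G} (hc : c ∈ D) (h : Commute d c) : c ∈ Comp D d := by
  by_cases e : c = d
  · exact Or.inl e
  · exact comp_of_sset ⟨hc, e, h⟩

theorem Star.comp_step {d c z : G} (hd : d ∈ D) (hc : c ∈ Comp D d) (hz : z ∈ Sset D c) : z ∈ Comp D d := by
  by_cases hdz : Commute d z
  · exact comp_commute hz.1 hdz
  refine Or.inr (Or.inr ⟨hz.1, hdz, ?_⟩)
  rcases hc with rfl | hc | hc
  · exact absurd hz.2.2 hdz
  · exact ⟨c, hc, sset_swap hc.1 hz |> fun h => ⟨hc.1, h.2.1, h.2.2⟩⟩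
  · have hzK : z ∉ com D c d := fun h => hdz h.2.2.2
    obtain ⟨a, ha, hza⟩ := (S.regular hc.1 hd (fun h => hc.2.1 h.symm) (hc.2.2.imp fun _ h => com_swap h)).2
      z hz hzK
    exact ⟨a, ha.2, ⟨ha.1.1, fun e => hdz (e ▸ ha.2.2.2), hza⟩⟩

theorem Star.comp_symm {d c : G} (hd : d ∈ D) (hc : c ∈ Comp D d) : d ∈ Comp D c := by
  rcases hc with rfl | hc | hc
  exacts [comp_self _, comp_of_sset (sset_swap hd hc), Or.inr (Or.inr (gam2_symm hd hc))]

theorem Star.comp_trans {d c : G} (hd : d ∈ D) (hc : c ∈ Comp D d) : Comp D c ⊆ Comp D d := by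
  rintro z (rfl | hz | ⟨hzD, -, a, ha⟩)
  · exact hc
  · exact S.comp_step hd hc hz
  · exact S.comp_step hd (S.comp_step hd hc ha.1) (sset_swap hzD ha.2)

theorem Star.comp_eq {d c : G} (hd : d ∈ D) (hc : c ∈ Comp D d) : Comp D c = Comp D d :=
  Set.Subset.antisymm (S.comp_trans hd hc)
    (S.comp_trans (S.comp_subset hd hc) (S.comp_symm hd hc))

theorem Star.gam2_conj (g : G) {d c : G} (hc : c ∈ Gam2 D d) : g * c * g⁻¹ ∈ Gam2 D (g * d * g⁻¹) :=
  ⟨S.conj g c hc.1, fun h => hc.2.1 ((Commute.conj_iff g).1 h),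
    hc.2.2.elim fun a ha => ⟨g * a * g⁻¹, S.sset_conj g ha.1, S.sset_conj g ha.2⟩⟩

theorem Star.comp_conj (g : G) {d c : G} (hc : c ∈ Comp D d) : g * c * g⁻¹ ∈ Comp D (g * d * g⁻¹) := by
  rcases hc with rfl | hc | hc
  exacts [comp_self _, comp_of_sset (S.sset_conj g hc), Or.inr (Or.inr (S.gam2_conj g hc))]

/-- There are 2816 members at distance two. -/
theorem Star.card_gam2 {d : G} (hd : d ∈ D) : (Gam2 D d).ncard = 2816 := by
  classical
  haveI : Fintype G := Fintype.ofFinite G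
  obtain ⟨w, -, -, hw⟩ := H43.exists_omega hF
  obtain ⟨R⟩ := S.models d hd
  set s := (Sset D d).toFinset with hs
  set t := (Gam2 D d).toFinset with ht
  let r : G → G → Prop := fun a c => c ∈ Sset D a
  have h1 : ∀ a ∈ s, (Finset.bipartiteAbove r t a).card = 512 := by
    intro a ha
    rw [hs, Set.mem_toFinset] at ha
    obtain ⟨Ra⟩ := S.models a ha.1
    have hda := sset_swap hd ha
    have e : (Finset.bipartiteAbove r t a : Set G) = Sset D a \ {z | z ∈ Sset D a ∧ Commute d z} := by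
      ext z
      simp only [Finset.bipartiteAbove, Finset.coe_filter, ht, Set.mem_toFinset, r, Set.mem_setOf_eq,
        Set.mem_diff]
      constructor
      · rintro ⟨hz, hza⟩
        exact ⟨hza, fun h => hz.2.1 h.2⟩
      · rintro ⟨hza, hn⟩
        have hdz : ¬ Commute d z := fun h => hn ⟨hza, h⟩
        exact ⟨⟨hza.1, hdz, a, ha, ⟨ha.1, hza.2.1.symm, hza.2.2.symm⟩⟩, hza⟩
    rw [← Set.ncard_coe_finset, e, Set.ncard_diff (fun z hz => hz.1), pts_card_star Ra, pts_card_perp hw Ra hda]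
  have h2 : ∀ c ∈ t, (Finset.bipartiteBelow r s c).card = 126 := by
    intro c hc
    rw [ht, Set.mem_toFinset] at hc
    rw [← (S.regular hd hc.1 hc.2.1 hc.2.2).1, ← Set.ncard_coe_finset]
    congr 1
    ext z
    simp only [Finset.bipartiteBelow, Finset.coe_filter, hs, Set.mem_toFinset, r, com, Set.mem_setOf_eq,
      Set.mem_inter_iff]
    exact and_congr_right fun hz => ⟨fun h => ⟨hz.1, h.2.1.symm, h.2.2.symm⟩,
      fun h => ⟨hc.1, h.2.1.symm, h.2.2.symm⟩⟩
  have key := Finset.card_mul_eq_card_mul r h1 h2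
  rw [show s.card = 693 by rw [hs, ← Set.ncard_eq_toFinset_card', pts_card_star R]] at key
  rw [Set.ncard_eq_toFinset_card', ← ht]
  omega

/-- The component has 3510 members. -/
theorem Star.card_comp {d : G} (hd : d ∈ D) : (Comp D d).ncard = 3510 := by
  obtain ⟨R⟩ := S.models d hd
  rw [Comp, Set.ncard_insert_of_notMem, Set.ncard_union_eq, pts_card_star R, S.card_gam2 hd]
  · exact Set.disjoint_left.2 fun z h1 h2 => h2.2.1 h1.2.2
  · rintro (h | h)
    exacts [h.2.1 rfl, h.2.1 (Commute.refl d)]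

theorem Star.gam2_braid {d c : G} (hd : d ∈ D) (hc : c ∈ Gam2 D d) : d * c * d = c * d * c :=
  hc.2.2.elim fun _ ha => S.braid hd hc.1 hc.2.1 ha

end Cfsg.Agent.H98.M22Class
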