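import Cfsg.Agent.H98.M22Class.Pair

/-! The class is one component. -/

set_option autoImplicit false
set_option linter.unusedSectionVars false

open Cfsg
open Cfsg.Agent.H17.UPoints Cfsg.Agent.H43.FischerTwins
open Cfsg.Agent.H97.Uniq

namespace Cfsg.Agent.H98.M22Class

variable {G : Type*} [Group G] [Finite G] {D : Set G} {F : Type} [Field F] [Fintype F]
  [DecidableEq F] {hF : Fintype.card F = 4} (S : Star D F hF)
include S

omit S in
/-- Two involutions with the second not in the class of the first have a central involution in their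
dihedral group whose product with one of them is in that class. -/
theorem dihedral {G : Type*} [Group G] [Finite G] {D : Set G} (hconj : ∀ g : G, ∀ y ∈ D, g * y * g⁻¹ ∈ D)
    {c x : G} (hc : c ∈ D) (hx : x ∉ D) (hcc : c * c = 1) (hxx : x * x = 1) :
    ∃ z : G, z * z = 1 ∧ z ≠ 1 ∧ Commute z c ∧ Commute z x ∧
      (∀ g, Commute g c → Commute g x → Commute g z) ∧ (c * z ∈ D ∨ x * z ∈ D) := by
  set r := c * x with hr
  have hci : c⁻¹ = c := inv_eq_of_mul_eq_one_right hcc
  have hxi : x⁻¹ = x := inv_eq_of_mul_eq_one_right hxx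
  have hinv : c * r * c = r⁻¹ := by
    rw [hr, mul_inv_rev, hxi, hci, ← mul_assoc c c, hcc, one_mul]
  have hinv' : x * r * x = r⁻¹ := by
    rw [hr, mul_inv_rev, hxi, hci]; simp only [mul_assoc]; rw [hxx, mul_one]
  have hconjc : ∀ k : ℕ, r ^ k * c = c * (r ^ k)⁻¹ := fun k => by
    have h : (c * r * c) ^ k = c * r ^ k * c := by
      induction k with
      | zero => simp [hcc]
      | succ k ih =>
        rw [pow_succ, ih, pow_succ]
        calc c * r ^ k * c * (c * r * c) = c * r ^ k * (c * c) * r * c := by group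
          _ = c * (r ^ k * r) * c := by rw [hcc, mul_one, mul_assoc c (r ^ k)]
    rw [hinv, inv_pow] at h
    calc r ^ k * c = (c * c) * r ^ k * c := by rw [hcc, one_mul]
      _ = c * (c * r ^ k * c) := by group
      _ = _ := by rw [← h]
  have hin : ∀ k : ℕ, c * r ^ (2 * k) ∈ D := fun k => by
    have := hconj (r ^ k)⁻¹ c hc
    rwa [inv_inv, mul_assoc (r ^ k)⁻¹ c, show c * r ^ k = (r ^ k)⁻¹ * c by
      have := hconjc k
      calc c * r ^ k = (r ^ k)⁻¹ * (r ^ k * c) * r ^ k := by group
        _ = _ := by rw [this]; group, ← mul_assoc, ← mul_inv_rev, ← pow_add, ← two_mul,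
      show (r ^ (2 * k))⁻¹ * c = c * r ^ (2 * k) by
        have := hconjc (2 * k)
        calc (r ^ (2 * k))⁻¹ * c = (r ^ (2 * k))⁻¹ * (c * (r ^ (2 * k))⁻¹) * r ^ (2 * k) := by group
          _ = _ := by rw [← this]; group] at this
  obtain ⟨m, hm⟩ : Even (orderOf r) := by
    by_contra hodd
    obtain ⟨m, hm⟩ := Nat.not_even_iff_odd.1 hodd
    refine hx ?_
    have h := hin (m + 1)
    rwa [show 2 * (m + 1) = orderOf r + 1 by omega, pow_succ, pow_orderOf_eq_one, one_mul, hr, ← mul_assoc,
      hcc, one_mul] at h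
  have hpos : 0 < orderOf r := orderOf_pos r
  have hz2 : r ^ m * r ^ m = 1 := by rw [← pow_add, ← hm, pow_orderOf_eq_one]
  have hz1 : r ^ m ≠ 1 := pow_ne_one_of_lt_orderOf (by omega) (by omega)
  have hzc : Commute (r ^ m) c := by
    show r ^ m * c = c * r ^ m
    rw [hconjc m, inv_eq_of_mul_eq_one_right hz2]
  have hzx : Commute (r ^ m) x := by
    have hx' : x = c * r := by rw [hr, ← mul_assoc, hcc, one_mul]
    rw [hx']
    exact hzc.mul_right (Commute.pow_self r m)
  refine ⟨r ^ m, hz2, hz1, hzc, hzx, fun g h1 h2 => ((h1.mul_right h2).pow_right m), ?_⟩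
  rcases Nat.even_or_odd' m with ⟨k, rfl | rfl⟩
  · exact Or.inl (hin k)
  · right
    have e : x * r ^ (2 * k + 1) = c * r ^ (2 * (k + 1)) := by
      rw [show 2 * (k + 1) = 2 * k + 1 + 1 by ring, pow_succ' r (2 * k + 1), hr, ← mul_assoc, ← mul_assoc,
        hcc, one_mul]
    rw [e]
    exact hin (k + 1)

/-- The partner of a pair given by a member outside the component. -/
theorem Star.exists_partner {d c h : G} (hd : d ∈ D) (hc : c ∈ D) (hout : c ∉ Comp D d) (hh : h ∈ Sset D d) :
    ∃ e, e ∈ Sset D d ∧ e ≠ h ∧ Commute h e ∧ Commute c (d * h * e) ∧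
      ∀ g, Commute g c → Commute g (d * h) → Commute g (d * h * e) := by
  have cdh : Commute d h := hh.2.2
  have hxx : d * h * (d * h) = 1 := by rw [cdh.symm.mul_mul_mul_comm, S.sq d hd, S.sq h hh.1, one_mul]
  obtain ⟨z, hz2, hz1, hzc, hzx, hall, h'⟩ := dihedral S.conj hc (S.pair_not_mem hd hh) (S.sq c hc) hxx
  have hzs := S.pair_stab hd hh hzx.symm
  have hin : ∀ {f}, f ∈ Comp D d → Commute c f → False := fun {f} hf hcf => hout (by
    rw [← S.comp_eq hd hf]; exact comp_commute hc hcf.symm)
  rcases h' with h' | h'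
  · exfalso
    have hs : c * z ∈ Sset D c :=
      ⟨h', fun e => hz1 (mul_left_cancel (e.trans (mul_one c).symm)), (Commute.refl c).mul_right hzc.symm⟩
    obtain ⟨f, hf, hzf⟩ := S.fix_member hd hzs hz2
    have := (S.pair_member hc hs (S.comp_subset hd hf) (by rw [← mul_assoc, S.sq c hc, one_mul]; exact hzf)).1
    exact hin hf this.symm
  · set e := d * h * z with he
    have hze : z = d * h * e := by rw [he, ← mul_assoc, hxx, one_mul]
    have hxe : Commute (d * h) e := (Commute.refl (d * h)).mul_right hzx.symm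
    obtain ⟨c1, c2⟩ := S.pair_member hd hh h' hxe
    have hed : e ≠ d := fun h0 => by
      refine hin (comp_of_sset hh) ?_
      rw [h0, mul_assoc d h d, ← cdh.eq, ← mul_assoc, S.sq d hd, one_mul] at hze
      exact hze ▸ hzc.symm
    have heh : e ≠ h := fun h0 => by
      refine hin (comp_self d) ?_
      rw [h0, mul_assoc, S.sq h hh.1, mul_one] at hze
      exact hze ▸ hzc.symm
    refine ⟨e, ⟨h', hed, c1.symm⟩, heh, c2.symm, hze ▸ hzc.symm, fun g g1 g2 => hze ▸ hall g g1 g2⟩

/-- Every member lies in the component. -/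
theorem Star.connected {d c : G} (hd : d ∈ D) (hc : c ∈ D) : c ∈ Comp D d := by
  classical
  by_contra hout
  obtain ⟨w, -, -, hw⟩ := H43.exists_omega hF
  choose! E hE using fun h (hh : h ∈ Sset D d) => S.exists_partner hd hc hout hh
  obtain ⟨R⟩ := S.models d hd
  obtain ⟨b, hb⟩ : (Sset D d).Nonempty := Set.nonempty_of_ncard_ne_zero (by rw [pts_card_star R]; norm_num)
  obtain ⟨he0, hne0, hbe0, hcz, -⟩ := hE b hb
  set e0 := E b with he0d
  set Y : Set G := {h | h ∈ Sset D d ∧ Commute b h ∧ Commute e0 h} with hY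
  have hY53 : Y.ncard = 53 := R.card_line hw hb he0 hbe0 hne0.symm
  have hmaps : ∀ h ∈ Y, E h ∈ Y := by
    intro h hh
    obtain ⟨he, -, hhe, -, hall⟩ := hE h hh.1
    have hcd : ∀ {p}, p ∈ Sset D d → Commute d p := fun hp => hp.2.2
    have h1 : Commute (d * b * e0) (d * h) :=
      ((((Commute.refl d).mul_right (hcd hh.1)).mul_left ((hcd hb).symm.mul_right hh.2.1)).mul_left
        ((hcd he0).symm.mul_right hh.2.2))
    have h2 : Commute (d * b * e0) (E h) := by
      have := h1.inv_right.mul_right (hall _ hcz.symm h1)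
      rwa [inv_mul_cancel_left] at this
    have h3 : Commute (b * e0) (E h) := by
      have := ((hcd he).inv_left).mul_left h2
      rwa [mul_assoc d b e0, inv_mul_cancel_left] at this
    obtain ⟨g1, g2⟩ := S.pair_member hb.1 ⟨he0.1, hne0, hbe0⟩ he.1 h3
    exact ⟨he, g1.symm, g2.symm⟩
  have hinvol : ∀ h ∈ Y, E (E h) = h := by
    intro h hh
    obtain ⟨hk, hkh, hhk, hck, -⟩ := hE h hh.1
    obtain ⟨hk', hk'k, hkk', hck', hall⟩ := hE (E h) hk
    set k := E h
    set k' := E k
    have h1 : Commute (d * h * k) (d * k) :=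
      (((Commute.refl d).mul_right hk.2.2).mul_left (hh.1.2.2.symm.mul_right hhk)).mul_left
        (hk.2.2.symm.mul_right (Commute.refl k))
    have h2 : Commute (d * h * k) k' := by
      have := h1.inv_right.mul_right (hall _ hck.symm h1)
      rwa [inv_mul_cancel_left] at this
    have h3 : Commute h k' := by
      have := (hk'.2.2.inv_left.mul_left h2).mul_left (hkk'.inv_left)
      rwa [mul_assoc d h k, inv_mul_cancel_left, mul_inv_cancel_right] at this
    by_contra hne
    have e : d * h * k * (d * k * k') = h * k' := by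
      have c1 : Commute (h * k) d := hh.1.2.2.symm.mul_left hk.2.2.symm
      calc d * h * k * (d * k * k') = d * (h * k * d) * k * k' := by group
        _ = (d * d) * h * (k * k) * k' := by rw [c1.eq]; group
        _ = h * k' := by rw [S.sq d hd, S.sq k hk.1, one_mul, mul_one]
    have hcp : Commute (h * k') c := by
      rw [← e]; exact (hck.mul_right hck').symm
    have := (S.pair_member hh.1.1 ⟨hk'.1, hne, h3⟩ hc hcp).1
    exact hout (by rw [← S.comp_eq hd (comp_of_sset hh.1)]; exact comp_commute hc this.symm)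
  haveI : Fintype Y := Fintype.ofFinite _
  let σ : Equiv.Perm Y :=
    ⟨fun h => ⟨E h, hmaps h h.2⟩, fun h => ⟨E h, hmaps h h.2⟩, fun h => Subtype.ext (hinvol h h.2),
      fun h => Subtype.ext (hinvol h h.2)⟩
  have hσ : σ ^ 2 ^ 1 = 1 := by
    rw [pow_one, pow_two]
    exact Equiv.ext fun h => Subtype.ext (hinvol h h.2)
  have hfix : σ.supportᶜ = ∅ := by
    refine Finset.eq_empty_of_forall_notMem fun h hh => ?_
    rw [Finset.mem_compl, Equiv.Perm.mem_support, not_not] at hh
    exact (hE h h.2.1).2.1 (congrArg Subtype.val hh)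
  haveI : Fact (Nat.Prime 2) := ⟨Nat.prime_two⟩
  have h := Equiv.Perm.card_compl_support_modEq hσ
  rw [hfix, Finset.card_empty, ← Nat.card_eq_fintype_card, Nat.card_coe_set_eq, hY53] at h
  exact absurd h (by decide)

end Cfsg.Agent.H98.M22Class
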