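import Cfsg.Agent.H98.M22Class.Sign

/-!
An odd subgroup of a centralizer normalised by the centralizer of a commuting pair is trivial, and the
transvections of two commuting members multiply to no third one.
-/

set_option autoImplicit false
set_option linter.unusedSectionVars false

open Cfsg
open Cfsg.Agent.H17.UPoints Cfsg.Agent.H43.FischerTwins
open Cfsg.Agent.H43.Polar (IsFrame toFrame vec ev fv cx cy pair Iso)
open Cfsg.Agent.H97.Uniq

namespace Cfsg.Agent.H98.M22Class

variable {G : Type*} [Group G] [Finite G] {D : Set G} {F : Type} [Field F] [Fintype F]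
  [DecidableEq F] {hF : Fintype.card F = 4} (S : Star D F hF)
include S

/-- The centralizer of a member permutes the pairs of its star transitively on each entry. -/
theorem Star.sset_trans {a b b' : G} (ha : a ∈ D) (hb : b ∈ Sset D a) (hb' : b' ∈ Sset D a) :
    ∃ g : G, Commute a g ∧ g * b * g⁻¹ = b' := by
  obtain ⟨R⟩ := S.models a ha
  obtain ⟨u, hu, huu, rfl⟩ := R.surj b hb
  obtain ⟨v, hv, hvv, rfl⟩ := R.surj b' hb'
  obtain ⟨g, hg⟩ := trv_transitive hF (by norm_num) huu hvv hu hv
  obtain ⟨h, hh, e⟩ := R.lift g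
  refine ⟨h, H43.M22.nearGen_commute hh, ?_⟩
  rw [e u hu huu]
  have hgu : act g u ≠ 0 ∧ herm (act g u) (act g u) = 0 :=
    ⟨fun e => hu (by rw [← act_one u, ← inv_mul_cancel g, act_mul, e]; exact Matrix.mulVec_zero _),
      by rw [herm_act]; exact huu⟩
  have htr : trv hF (act g u) = trv hF v := by rw [← trv_conj hF g huu]; exact hg
  obtain ⟨k, hk, ek⟩ := trv_eq hF hgu.2 hvv hgu.1 htr
  rw [ek, R.smul k v hk hv hvv]

/-- Commuting members acting alike on a member moved by one of them are equal. -/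
theorem Star.conj_eq {a b e v : G} (ha : a ∈ D) (hb : b ∈ Sset D a) (he : e ∈ Sset D a) (hv : v ∈ Sset D a)
    (hbe : Commute b e) (hbv : ¬ Commute b v) (h : b * v * b⁻¹ = e * v * e⁻¹) : b = e := by
  obtain ⟨R⟩ := S.models a ha
  obtain ⟨u, hu, huu, rfl⟩ := R.surj b hb
  obtain ⟨u', hu', huu', rfl⟩ := R.surj e he
  obtain ⟨p, hp, hpp, rfl⟩ := R.surj v hv
  rw [R.conj u p hu huu hp hpp, R.conj u' p hu' huu' hp hpp] at h
  have t := third_iso hF huu hp hpp
  have t' := third_iso hF huu' hp hpp
  obtain ⟨k, hk, ek⟩ := R.inj _ _ t.1 t.2 t'.1 t'.2 h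
  have hpu : herm p u ≠ 0 := fun e => hbv ((R.commute u p hu huu hp hpp).2 ((herm_zero_comm hF).1 e))
  have h0 := congrArg (fun z => herm z u) ek
  simp only [herm_add_left hF, herm_smul_left hF, huu, (herm_zero_comm hF).1
    ((R.commute u u' hu huu hu' huu').1 hbe), mul_zero, add_zero] at h0
  have hk1 : k = 1 := mul_right_cancel₀ hpu (by rw [one_mul]; exact h0.symm)
  rw [hk1, one_smul] at ek
  have e' := add_left_cancel ek
  have hu'0 : herm p u' ≠ 0 := fun h0 => by
    rw [h0, zero_smul] at e'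
    exact hu ((smul_eq_zero.1 e').resolve_left hpu)
  have : u = ((herm p u)⁻¹ * herm p u') • u' := by
    rw [← smul_smul, ← e', smul_smul, inv_mul_cancel₀ hpu, one_smul]
  rw [this, R.smul _ _ (mul_ne_zero (inv_ne_zero hpu) hu'0) hu' huu']

/-- Some member of a star moves a given one and fixes another. -/
theorem Star.exists_move_fix {a b e : G} (ha : a ∈ D) (hb : b ∈ Sset D a) (he : e ∈ Sset D a)
    (hbe : Commute b e) (hne : b ≠ e) : ∃ v ∈ Sset D a, ¬ Commute b v ∧ Commute e v := by
  obtain ⟨w, -, -, hw⟩ := H43.exists_omega hF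
  obtain ⟨R₀⟩ := S.models a ha
  obtain ⟨R, eb, ee⟩ := R₀.exists_at_line hw hb he hbe hne
  have i0 := iso_std hF hw 0
  have i1 := iso_std hF hw 1
  have hs := herm_std hF hw
  refine ⟨R.pt (fv w 0), R.mem _ i0.2.1 i0.2.2, fun h => ?_, ?_⟩
  · rw [← eb] at h
    have h0 := (R.commute _ _ i0.1.1 i0.1.2 i0.2.1 i0.2.2).1 h
    rw [(hs 0 0).2.2.1, if_pos rfl] at h0
    exact one_ne_zero h0
  · rw [← ee]
    exact (R.commute _ _ i1.1.1 i1.1.2 i0.2.1 i0.2.2).2 ((hs 1 0).2.2.1.trans (if_neg (by decide)))

/-- The product of three commuting members of a star and its centre is no member. -/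
theorem Star.no_two {a b e : G} (ha : a ∈ D) (hb : b ∈ Sset D a) (he : e ∈ Sset D a) (hbe : Commute b e)
    (hne : b ≠ e) : e * a * b ∉ D := by
  intro hf
  have cab : Commute a b := hb.2.2
  have cae : Commute a e := he.2.2
  have hfs : e * a * b ∈ Sset D a := by
    refine ⟨hf, fun h => hne ?_, ((cae.mul_right (Commute.refl a)).mul_right cab)⟩
    have h1 : e * b = 1 := by
      calc e * b = a⁻¹ * (e * a * b) := by rw [← cae.eq]; group
        _ = 1 := by rw [h, inv_mul_cancel]
    rw [← inv_eq_of_mul_eq_one_right h1, S.inv_eq he.1]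
  obtain ⟨v, hv, hbv, hev⟩ := S.exists_move_fix ha hb he hbe hne
  have cbf : Commute b (e * a * b) := (hbe.mul_right cab.symm).mul_right (Commute.refl b)
  have h := S.conj_eq ha hb hfs hv cbf hbv ?_
  · refine he.2.1 ?_
    have h1 : e * a = 1 := by
      calc e * a = e * a * b * b⁻¹ := by group
        _ = 1 := by rw [← h, mul_inv_cancel]
    rw [← inv_eq_of_mul_eq_one_right h1, S.inv_eq he.1]
  · have hav : Commute a (b * v * b⁻¹) := (cab.mul_right hv.2.2).mul_right cab.inv_right
    have hev' : Commute e (b * v * b⁻¹) := (hbe.symm.mul_right hev).mul_right hbe.symm.inv_right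
    rw [show e * a * b * v * (e * a * b)⁻¹ = e * (a * (b * v * b⁻¹) * a⁻¹) * e⁻¹ by group, hav.eq,
      mul_inv_cancel_right, hev'.eq, mul_inv_cancel_right]

/-- The product of two commuting members is no member. -/
theorem Star.pair_not_mem {a b : G} (ha : a ∈ D) (hb : b ∈ Sset D a) : a * b ∉ D := by
  intro hc
  have hcs : a * b ∈ Sset D a := by
    refine ⟨hc, fun h => S.ne_one b hb.1 ?_, (Commute.refl a).mul_right hb.2.2⟩
    exact mul_left_cancel (h.trans (mul_one a).symm)
  obtain ⟨w, -, -, hw⟩ := H43.exists_omega hF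
  obtain ⟨R⟩ := S.models a ha
  obtain ⟨v, hv, hvb⟩ : ∃ v ∈ Sset D a, ¬ Commute b v := by
    by_contra h
    push Not at h
    have h1 := pts_card_perp hw R hb
    rw [show {z | z ∈ Sset D a ∧ Commute b z} = Sset D a from Set.ext fun z => ⟨fun hz => hz.1, fun hz => ⟨hz, h z hz⟩⟩,
      pts_card_star R] at h1
    omega
  have cb : Commute b (a * b) := hb.2.2.symm.mul_right (Commute.refl b)
  have h := S.conj_eq ha hb hcs hv cb hvb (by
    have hav : Commute a (b * v * b⁻¹) := (hb.2.2.mul_right hv.2.2).mul_right hb.2.2.inv_right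
    rw [show a * b * v * (a * b)⁻¹ = a * (b * v * b⁻¹) * a⁻¹ by group, hav.eq, mul_inv_cancel_right])
  exact S.ne_one a ha (mul_right_cancel (h.symm.trans (one_mul b).symm))

/-- A member of a star commuting with the product of two others commutes with both. -/
theorem Star.commute_pair {e a b f : G} (he : e ∈ D) (ha : a ∈ Sset D e) (hb : b ∈ Sset D e)
    (hf : f ∈ Sset D e) (hab : Commute a b) (hne : a ≠ b) (hfx : Commute f (a * b)) :
    Commute f a ∧ Commute f b := by
  have key : Commute f a := by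
    by_contra hfa
    obtain ⟨R⟩ := S.models e he
    obtain ⟨u, hu, huu, rfl⟩ := R.surj a ha
    obtain ⟨u', hu', huu', rfl⟩ := R.surj b hb
    obtain ⟨p, hp, hpp, rfl⟩ := R.surj f hf
    have t' := third_iso hF huu' hp hpp
    have t := third_iso hF huu t'.1 t'.2
    have huu'0 : herm u' u = 0 := (herm_zero_comm hF).1 ((R.commute u u' hu huu hu' huu').1 hab)
    have h : R.pt (p + herm p u' • u' + herm (p + herm p u' • u') u • u) = R.pt p := by
      rw [← R.conj u _ hu huu t'.1 t'.2, ← R.conj u' p hu' huu' hp hpp,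
        show R.pt u * (R.pt u' * R.pt p * (R.pt u')⁻¹) * (R.pt u)⁻¹ =
          R.pt u * R.pt u' * R.pt p * (R.pt u * R.pt u')⁻¹ by group, hfx.symm.eq, mul_inv_cancel_right]
    obtain ⟨k, hk, ek⟩ := R.inj _ _ t.1 t.2 hp hpp h
    have hpu : herm p u ≠ 0 := fun e => hfa ((R.commute p u hp hpp hu huu).2 e)
    have h0 := congrArg (fun z => herm z u) ek
    simp only [herm_add_left hF, herm_smul_left hF, huu, huu'0, mul_zero, add_zero] at h0
    have hk1 : k = 1 := mul_right_cancel₀ hpu (by rw [one_mul]; exact h0.symm)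
    rw [hk1, one_smul, herm_add_left hF, herm_smul_left hF, huu'0, mul_zero, add_zero, add_assoc,
      add_eq_left] at ek
    have e1 : herm p u' • u' = herm p u • u := by
      have neg : ∀ z : Fin 6 → F, z + z = 0 := fun z => funext fun i => add_self hF (z i)
      calc herm p u' • u' = herm p u' • u' + (herm p u • u + herm p u • u) := by rw [neg, add_zero]
        _ = herm p u • u := by rw [← add_assoc, ek, zero_add]
    have e2 : u = ((herm p u)⁻¹ * herm p u') • u' := by
      rw [← smul_smul, e1, smul_smul, inv_mul_cancel₀ hpu, one_smul]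
    have hne0 : (herm p u)⁻¹ * herm p u' ≠ 0 := fun h => hu (by rw [e2, h, zero_smul])
    exact hne (by rw [e2, R.smul _ _ hne0 hu' huu'])
  refine ⟨key, ?_⟩
  have h := key.inv_right.mul_right hfx
  rwa [inv_mul_cancel_left] at h

omit S in
theorem line_act_eq (hF : Fintype.card F = 4) {v u p : Fin 6 → F} (c : F) :
    (v + herm v u • u) + herm (v + herm v u • u) (u + c • p) • (u + c • p) =
      v + herm v u • u + (herm v u + c ^ 2 * herm v p + herm v u * (herm u u + c ^ 2 * herm u p)) • (u + c • p) := by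
  simp only [herm_add_left hF, herm_smul_left hF, herm_add_right hF, herm_smul_right hF]

/-- An odd subgroup centralizing a commuting pair and normalised by their centralizer is trivial. -/
theorem Star.core_triv {a b : G} (ha : a ∈ D) (hb : b ∈ Sset D a) (W : Subgroup G) (hodd : Odd (Nat.card W))
    (hWa : ∀ y ∈ W, Commute a y ∧ Commute b y)
    (hnorm : ∀ g : G, Commute a g → Commute b g → ∀ y ∈ W, g * y * g⁻¹ ∈ W) : W = ⊥ := by
  classical
  obtain ⟨R⟩ := S.models a ha
  obtain ⟨p, hp, hpp, ep⟩ := R.surj b hb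
  have hoddo : ∀ y ∈ W, Odd (orderOf y) := fun y hy => by
    refine Odd.of_dvd_nat hodd ?_
    rw [← Subgroup.orderOf_mk y hy]
    exact orderOf_dvd_natCard _
  have small : ∀ y ∈ W, ∀ n, 0 < n → (∀ z ∈ Sset D a, Commute (y ^ (2 ^ n)) z) → y = 1 := by
    intro y hy n hn hc
    have hcy : Commute a (y ^ (2 ^ n)) := (hWa y hy).1.pow_right _
    have hall : ∀ h, Commute a h → Commute (y ^ (2 ^ n)) h := by
      intro h hh
      have hm := S.cent a ha h hh
      clear hh
      induction hm using Subgroup.closure_induction with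
      | mem z hz => exact hc z hz
      | one => exact Commute.one_right _
      | mul g g' _ _ h1 h2 => exact h1.mul_right h2
      | inv g _ h1 => exact h1.inv_right
    have hcop : Nat.Coprime (orderOf y) (2 ^ n) :=
      Nat.Coprime.pow_right n (Nat.coprime_two_right.2 (hoddo y hy))
    rcases S.ctr a ha _ hcy hall with h | h
    · exact orderOf_eq_one_iff.1 (Nat.eq_one_of_dvd_coprimes hcop dvd_rfl (orderOf_dvd_of_pow_eq_one h))
    · exfalso
      have h1 : Odd (orderOf a) := by
        refine Odd.of_dvd_nat (hoddo y hy) ?_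
        rw [← h]; exact orderOf_pow_dvd _
      rw [orderOf_eq_prime (p := 2) (by rw [pow_two]; exact S.sq a ha) (S.ne_one a ha)] at h1
      exact absurd h1 (by decide)
  -- members next to b are fixed
  have near : ∀ y ∈ W, ∀ e ∈ Sset D a, Commute b e → e ≠ b → Commute y e := by
    intro y hy e he hbe hne
    obtain ⟨u, hu, huu, eu⟩ := R.surj e he
    have hup : herm u p = 0 := (R.commute u p hu huu hp hpp).1 (by rw [eu, ep]; exact hbe.symm)
    have hpu : herm p u = 0 := (herm_zero_comm hF).1 hup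
    have hind : ∀ c : F, u ≠ c • p := fun c h => hne (by
      rw [← eu, ← ep, h, R.smul c p (fun h0 => hu (by rw [h, h0, zero_smul])) hp hpp])
    obtain ⟨w, -, -, hw⟩ := H43.exists_omega hF
    have tu : ∀ {l : F}, l ≠ 0 → u + l • p ≠ 0 ∧ herm (u + l • p) (u + l • p) = 0 := fun {l} hl =>
      (R.onLine_of_span hw hu huu hp hpp hup hind hl).1
    obtain ⟨iu', hol⟩ := R.onLine_of_span hw hu huu hp hpp hup hind (l := 1) one_ne_zero
    set e' := R.pt (u + (1 : F) • p) with he'
    have he'm : e' ∈ Sset D a := R.mem _ iu'.1 iu'.2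
    -- the images
    obtain ⟨hya, hyb⟩ := hWa y hy
    have him : ∀ z ∈ Sset D a, y * z * y⁻¹ ∈ Sset D a := fun z hz => by
      have h := S.sset_conj y hz
      rwa [hya.symm.eq, mul_inv_cancel_right] at h
    obtain ⟨u1, hu1, hu1u, eu1⟩ := R.surj _ (him e he)
    obtain ⟨u1', hu1', hu1u', eu1'⟩ := R.surj _ (him e' he'm)
    have hu1p : herm u1 p = 0 := (R.commute u1 p hu1 hu1u hp hpp).1 (by
      rw [eu1, ep]
      have := (Commute.conj_iff y).2 hbe.symm
      rwa [hyb.symm.eq, mul_inv_cancel_right] at this)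
    have hind1 : ∀ c : F, u1 ≠ c • p := fun c h => hne (by
      have h1 : y * e * y⁻¹ = b := by
        rw [← eu1, ← ep, h, R.smul c p (fun h0 => hu1 (by rw [h, h0, zero_smul])) hp hpp]
      calc e = y⁻¹ * (y * e * y⁻¹) * y := by group
        _ = b := by rw [h1, mul_assoc, ← hyb.symm.eq, inv_mul_cancel_left])
    obtain ⟨l, hl, el⟩ : ∃ l : F, l ≠ 0 ∧ y * e' * y⁻¹ = R.pt (u1 + l • p) := by
      have hol1 : H89.M22.OnLine D a (R.pt u1) (R.pt p) (R.pt u1') := by
        rw [eu1, ep, eu1']
        obtain ⟨m1, m2, m3, m4, m5, m6⟩ := hol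
        rw [eu, ep] at *
        refine ⟨him e' he'm, fun h => m2 (mul_left_cancel (mul_right_cancel h)), fun h => m3 ?_,
          (Commute.conj_iff y).2 m4, ?_, fun z hz h1 h2 => ?_⟩
        · calc e' = y⁻¹ * (y * e' * y⁻¹) * y := by group
            _ = b := by rw [h, mul_assoc, ← hyb.symm.eq, inv_mul_cancel_left]
        · have := (Commute.conj_iff y).2 m5
          rwa [hyb.symm.eq, mul_inv_cancel_right] at this
        · have hz' : y⁻¹ * z * y ∈ Sset D a := by
            have h := S.sset_conj y⁻¹ hz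
            rwa [hya.symm.inv_left.eq, mul_inv_cancel_right, inv_inv] at h
          have c1 : Commute (y⁻¹ * z * y) e := by
            have := (Commute.conj_iff y⁻¹).2 h1
            simpa [mul_assoc] using this
          have c2 : Commute (y⁻¹ * z * y) b := by
            have := (Commute.conj_iff y⁻¹).2 h2
            rw [inv_inv, hyb.symm.inv_left.eq, inv_mul_cancel_right] at this
            exact this
          have := (Commute.conj_iff y).2 (m6 _ hz' c1 c2)
          rwa [show y * (y⁻¹ * z * y) * y⁻¹ = z by group] at this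
      have hsp := R.span_of_onLine hw hu1 hu1u hp hpp hu1p hu1' hu1u' hol1
      rcases Pts.span_cases hu1 hu1' hsp with ⟨k, hk, e1⟩ | ⟨m, k, hk, e1⟩
      · exfalso
        refine hol.2.1 ?_
        rw [eu]
        refine mul_left_cancel (mul_right_cancel (b := y⁻¹) (?_ : y * e' * y⁻¹ = y * e * y⁻¹))
        rw [← eu1', ← eu1, e1, R.smul k u1 hk hu1 hu1u]
      · rcases eq_or_ne m 0 with rfl | hm
        · exfalso
          refine hol.2.2.1 ?_
          rw [ep]
          have h1 : y * e' * y⁻¹ = b := by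
            rw [← eu1', e1, zero_smul, add_zero, R.smul k p hk hp hpp, ep]
          calc e' = y⁻¹ * (y * e' * y⁻¹) * y := by group
            _ = b := by rw [h1, mul_assoc, ← hyb.symm.eq, inv_mul_cancel_left]
        · refine ⟨m⁻¹, inv_ne_zero hm, ?_⟩
          have t1 := (R.onLine_of_span hw hu1 hu1u hp hpp hu1p hind1 (inv_ne_zero hm)).1
          rw [← eu1', e1, show k • (p + m • u1) = (k * m) • (u1 + m⁻¹ • p) by
            rw [smul_add, smul_add, smul_smul, smul_smul, mul_assoc, mul_inv_cancel₀ hm, mul_one, add_comm],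
            R.smul _ _ (mul_ne_zero hk hm) t1.1 t1.2]
    have hl3 := cube hF hl
    -- the two pairs act by linear maps
    let T : F → (Fin 6 → F) → (Fin 6 → F) → (Fin 6 → F) := fun c q v =>
      v + (c * herm v q + herm v p) • p + (c ^ 2 * herm v p) • q
    have hT : ∀ (c : F) (q : Fin 6 → F), c ≠ 0 → q ≠ 0 → herm q q = 0 → herm q p = 0 →
        (q + c • p ≠ 0 ∧ herm (q + c • p) (q + c • p) = 0) → ∀ v, v ≠ 0 → herm v v = 0 →
        (T c q v ≠ 0 ∧ herm (T c q v) (T c q v) = 0) ∧
        R.pt (q + c • p) * R.pt q * R.pt v * (R.pt (q + c • p) * R.pt q)⁻¹ = R.pt (T c q v) := by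
      intro c q hc hq hqq hqp hiso v hv hvv
      have t1 := third_iso hF hqq hv hvv
      have t2 := third_iso hF hiso.2 t1.1 t1.2
      have hc3 : c * c ^ 2 = 1 := by linear_combination cube hF hc
      have e : (v + herm v q • q) + herm (v + herm v q • q) (q + c • p) • (q + c • p) = T c q v := by
        rw [line_act_eq hF, hqq, hqp, mul_zero, add_zero, mul_zero, add_zero]
        funext i
        simp only [T, Pi.add_apply, Pi.smul_apply, smul_eq_mul]
        linear_combination (herm v p * p i) * hc3 + (herm v q * q i) * add_self hF (1 : F)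
      refine ⟨e ▸ t2, ?_⟩
      rw [← e, show R.pt (q + c • p) * R.pt q * R.pt v * (R.pt (q + c • p) * R.pt q)⁻¹ =
        R.pt (q + c • p) * (R.pt q * R.pt v * (R.pt q)⁻¹) * (R.pt (q + c • p))⁻¹ by group,
        R.conj q v hq hqq hv hvv, R.conj _ _ hiso.1 hiso.2 t1.1 t1.2]
    have hiso1 := (R.onLine_of_span hw hu1 hu1u hp hpp hu1p hind1 hl).1
    set q0 := e' * e with hq0
    have hqW : y * q0 * y⁻¹ * q0⁻¹ ∈ W := by
      have hca : Commute a q0⁻¹ := (he'm.2.2.mul_right he.2.2).inv_right
      have hcb : Commute b q0⁻¹ := by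
        have h1 : Commute e' b := ep ▸ hol.2.2.2.2.1
        exact (h1.symm.mul_right hbe).inv_right
      have h := hnorm q0⁻¹ hca hcb y⁻¹ (inv_mem hy)
      rw [inv_inv] at h
      have := mul_mem hy (hnorm q0 (by simpa using hca.inv_right) (by simpa using hcb.inv_right) y⁻¹ (inv_mem hy))
      rwa [show y * (q0 * y⁻¹ * q0⁻¹) = y * q0 * y⁻¹ * q0⁻¹ by group] at this
    have hyq : y * q0 * y⁻¹ = R.pt (u1 + l • p) * R.pt u1 := by
      rw [hq0, show y * (e' * e) * y⁻¹ = (y * e' * y⁻¹) * (y * e * y⁻¹) by group, el, eu1]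
    have hq0' : q0⁻¹ = q0 := by
      rw [hq0]
      refine inv_eq_of_mul_eq_one_right ?_
      have c1 : Commute e' e := eu ▸ hol.2.2.2.1
      rw [c1.symm.mul_mul_mul_comm, S.sq _ he'm.1, S.sq _ he.1, one_mul]
    have hq0e : q0 = R.pt (u + (1 : F) • p) * R.pt u := by rw [hq0, he', eu]
    -- fourth power is central
    let N : (Fin 6 → F) → (Fin 6 → F) := fun v => T l u1 (T 1 u v)
    have hNconj : ∀ v, v ≠ 0 → herm v v = 0 → (N v ≠ 0 ∧ herm (N v) (N v) = 0) ∧
        (y * q0 * y⁻¹ * q0⁻¹) * R.pt v * (y * q0 * y⁻¹ * q0⁻¹)⁻¹ = R.pt (N v) := by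
      intro v hv hvv
      obtain ⟨i1, c1⟩ := hT 1 u one_ne_zero hu huu hup iu' v hv hvv
      obtain ⟨i2, c2⟩ := hT l u1 hl hu1 hu1u hu1p hiso1 _ i1.1 i1.2
      refine ⟨i2, ?_⟩
      rw [← c2, ← c1, hyq, hq0', hq0e]; group
    have hp0 : herm p u1 = 0 := (herm_zero_comm hF).1 hu1p
    have hT0 : ∀ (c : F) q, herm q p = 0 → ∀ v, herm (T c q v) p = herm v p := fun c q hq v => by
      simp only [T, herm_add_left hF, herm_smul_left hF, hpp, hq, mul_zero, add_zero]
    have hN4 : ∀ v, N (N (N (N v))) = v := by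
      intro v
      have hlin : ∀ v, N v = v + (herm v u + herm v p + l * (herm v u1 + herm v p * herm u u1) +
          herm v p + (0 : F)) • p + herm v p • u + (l ^ 2 * herm v p) • u1 := by
        intro v
        funext i
        simp only [N, T, herm_add_left hF, herm_smul_left hF, hpp, hup, hp0, mul_zero, add_zero, one_mul, one_pow,
          Pi.add_apply, Pi.smul_apply, smul_eq_mul]
        ring
      funext i
      simp only [hlin, herm_add_left hF, herm_smul_left hF, hpp, hup, hpu, hu1p, hp0, huu, hu1u,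
        mul_zero, add_zero, Pi.add_apply, Pi.smul_apply, smul_eq_mul]
      ring_nf
      simp [H43.Polar.two_zero hF, show (4 : F) = 0 by linear_combination 2 * H43.Polar.two_zero hF,
        show (6 : F) = 0 by linear_combination 3 * H43.Polar.two_zero hF,
        show (8 : F) = 0 by linear_combination 4 * H43.Polar.two_zero hF,
        show (12 : F) = 0 by linear_combination 6 * H43.Polar.two_zero hF,
        show (16 : F) = 0 by linear_combination 8 * H43.Polar.two_zero hF,
        show (24 : F) = 0 by linear_combination 12 * H43.Polar.two_zero hF,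
        show (10 : F) = 0 by linear_combination 5 * H43.Polar.two_zero hF]
    have hcomm : y * q0 * y⁻¹ * q0⁻¹ = 1 := by
      refine small _ hqW 2 (by norm_num) fun z hz => ?_
      obtain ⟨v, hv, hvv, rfl⟩ := R.surj z hz
      obtain ⟨i1, c1⟩ := hNconj v hv hvv
      obtain ⟨i2, c2⟩ := hNconj _ i1.1 i1.2
      obtain ⟨i3, c3⟩ := hNconj _ i2.1 i2.2
      obtain ⟨-, c4⟩ := hNconj _ i3.1 i3.2
      rw [← c3, ← c2, ← c1, hN4] at c4
      generalize y * q0 * y⁻¹ * q0⁻¹ = r at c4 ⊢
      refine mul_inv_eq_iff_eq_mul.1 (Eq.trans ?_ c4)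
      simp [pow_succ, mul_assoc]
    have hsame : y * q0 * y⁻¹ = q0 := mul_inv_eq_one.1 hcomm
    -- so the image of e is on its pair
    obtain ⟨z, hz⟩ := exists_one hF hp
    obtain ⟨k, hk, hkz⟩ := H89.M22.exists_iso_add hF hpp hz
    set v := z + k • p with hv
    have hvp : herm v p = 1 := by rw [hv, herm_add_left hF, herm_smul_left hF, hpp, mul_zero, add_zero, hz]
    have hv0 : v ≠ 0 := fun h => zero_ne_one (α := F) (by
      rw [← hvp, h, show (0 : Fin 6 → F) = (0 : F) • p by rw [zero_smul], herm_smul_left hF, zero_mul])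
    have hvv : herm v v = 0 := by
      first
        | exact hk
        | exact hk.2
        | exact hkz
    obtain ⟨i1, c1⟩ := hT 1 u one_ne_zero hu huu hup iu' v hv0 hvv
    obtain ⟨i2, c2⟩ := hT l u1 hl hu1 hu1u hu1p hiso1 v hv0 hvv
    rw [← hyq, hsame, hq0e, c1] at c2
    obtain ⟨s, hs, es⟩ := R.inj _ _ i1.1 i1.2 i2.1 i2.2 c2
    have hs1 := congrArg (fun x => herm x p) es
    simp only [hT0 _ _ hup, herm_smul_left hF, hT0 _ _ hu1p, hvp, mul_one] at hs1
    rw [← hs1, one_smul] at es
    simp only [T, hvp, mul_one, one_mul, one_pow, one_smul] at es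
    set h := herm v u
    set h1 := herm v u1
    have hu1eq : u1 = l • (u + (h + l * h1) • p) := by
      funext i
      have := congrFun es i
      simp only [Pi.add_apply, Pi.smul_apply, smul_eq_mul] at this ⊢
      linear_combination (-l) * this - u1 i * hl3 - (l ^ 2 * h1 * p i) * add_self hF (1 : F)
    set c := h + l * h1 with hc
    have hh1 : h1 = l ^ 2 * (h + c ^ 2) := by
      have := congrArg (fun x => herm v x) hu1eq
      simp only [herm_smul_right hF, herm_add_right hF, hvp, mul_one] at this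
      exact this
    have hcc : c * (c + 1) = 0 := by
      linear_combination hc + l * hh1 + (h + c ^ 2) * hl3 + (h + c ^ 2) * add_self hF (1 : F)
    have hcases : y * e * y⁻¹ = e ∨ y * e * y⁻¹ = e' := by
      rcases mul_eq_zero.1 hcc with h0 | h0
      · left
        rw [← eu1, hu1eq, h0, zero_smul, add_zero, R.smul l u hl hu huu, eu]
      · right
        have hc1 : c = 1 := by linear_combination h0 - add_self hF (1 : F)
        rw [← eu1, hu1eq, hc1, R.smul l _ hl iu'.1 iu'.2]
    rcases hcases with h | h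
    · exact mul_inv_eq_iff_eq_mul.1 h
    · have h2 : y ^ 2 * e * (y ^ 2)⁻¹ = e := by
        have hes : y * e' * y⁻¹ * (y * e * y⁻¹) = e' * e := by
          rw [show y * e' * y⁻¹ * (y * e * y⁻¹) = y * (e' * e) * y⁻¹ by group]; exact hsame
        rw [h] at hes
        have c1 : Commute e' e := eu ▸ hol.2.2.2.1
        have hye : y * e' * y⁻¹ = e := mul_right_cancel (hes.trans c1.eq)
        rw [pow_two, show y * y * e * (y * y)⁻¹ = y * (y * e * y⁻¹) * y⁻¹ by group, h, hye]
      obtain ⟨n, hn⟩ := hoddo y hy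
      have hc2 : Commute (y ^ 2) e := mul_inv_eq_iff_eq_mul.1 h2
      have h3 := (hc2.pow_left n).eq
      have e1 : y = (y ^ 2) ^ n.succ := by
        rw [← pow_mul, show 2 * n.succ = orderOf y + 1 by omega, pow_succ, pow_orderOf_eq_one, one_mul]
      rw [e1]
      exact hc2.pow_left _
  -- so every member is fixed
  refine (Subgroup.eq_bot_iff_forall W).2 fun y hy => small y hy 1 one_pos fun f hf => ?_
  refine Commute.pow_left ?_ _
  by_cases hfb : Commute b f
  · by_cases e : f = b
    · exact e ▸ (hWa y hy).2.symm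
    · exact near y hy f hf hfb e
  obtain ⟨w, -, -, hw⟩ := H43.exists_omega hF
  have key : ∀ y ∈ W, y * f * y⁻¹ = f ∨ y * f * y⁻¹ = b * f * b⁻¹ := by
    intro y hy
    obtain ⟨hya, hyb⟩ := hWa y hy
    have hm : y * f * y⁻¹ ∈ Sset D a := by
      have h := S.sset_conj y hf
      rwa [hya.symm.eq, mul_inv_cancel_right] at h
    have hperp : ∀ t ∈ Sset D a, Commute b t → Commute f t → Commute (y * f * y⁻¹) t := by
      intro t ht h1 h2
      by_cases e : t = b
      · exfalso; exact hfb (e ▸ h2).symm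
      have := (Commute.conj_iff y).2 h2
      rwa [(near y hy t ht h1 e).eq, mul_inv_cancel_right] at this
    rcases R.third hw hb hf hm hfb hperp with h | h | h
    · exfalso
      refine hfb ?_
      rw [show f = y⁻¹ * (y * f * y⁻¹) * y by group, h, mul_assoc, ← hyb.symm.eq, inv_mul_cancel_left]
    · exact Or.inl h
    · exact Or.inr h
  rcases key y hy with h | h
  · exact mul_inv_eq_iff_eq_mul.1 h
  · obtain ⟨hya, hyb⟩ := hWa y hy
    have h2 : Commute (y ^ 2) f := by
      refine mul_inv_eq_iff_eq_mul.1 ?_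
      rw [pow_two, show y * y * f * (y * y)⁻¹ = y * (y * f * y⁻¹) * y⁻¹ by group, h,
        show y * (b * f * b⁻¹) * y⁻¹ = (y * b * y⁻¹) * (y * f * y⁻¹) * (y * b * y⁻¹)⁻¹ by group,
        hyb.symm.eq, mul_inv_cancel_right, h, S.inv_eq hb.1]
      calc b * (b * f * b) * b = (b * b) * f * (b * b) := by group
        _ = f := by rw [S.sq b hb.1, one_mul, mul_one]
    obtain ⟨n, hn⟩ := hoddo y hy
    have e1 : y = (y ^ 2) ^ n.succ := by
      rw [← pow_mul, show 2 * n.succ = orderOf y + 1 by omega, pow_succ, pow_orderOf_eq_one, one_mul]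
    rw [e1]
    exact h2.pow_left _

end Cfsg.Agent.H98.M22Class
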