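import Cfsg.Agent.H98.M22Class.Base
import Cfsg.Agent.H97.Uniq.Graph

/-! Counting inside one star. -/

set_option autoImplicit false
set_option linter.unusedSectionVars false

open Cfsg
open Cfsg.Agent.H17.UPoints Cfsg.Agent.H43.FischerTwins
open Cfsg.Agent.H43.Polar (IsFrame toFrame vec ev fv cx cy pair Iso)
open Cfsg.Agent.H97.Uniq

namespace Cfsg.Agent.H98.M22Class

theorem count_perp_pair_pt :
    Fintype.card {g : Fin 6 → Fin 4 //
      (g ≠ 0 ∧ 2 ∣ (Finset.univ.filter fun i => g i ≠ 0).card) ∧ g 0 = 0 ∧ g 1 = 0 ∧ g 2 = g 3} = 39 := by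
  decide +kernel

/-- The common partners. -/
def com {G : Type*} [Group G] (D : Set G) (d c : G) : Set G := Sset D d ∩ Sset D c

variable {G : Type*} [Group G] [Finite G] {D : Set G} {F : Type} [Field F] [Fintype F]
  [DecidableEq F] {hF : Fintype.card F = 4} {x : G} {w : F} (hw : w + w ^ 2 = 1)

include hw in
/-- Twelve of the partners of a pair are next to a given one. -/
theorem pts_card_pair_pt (R : Pts D x F hF) {d q p : G} (hd : d ∈ Sset D x) (hq : q ∈ Sset D x)
    (hp : p ∈ Sset D x) (hdq : ¬ Commute d q) (hdp : Commute d p) (hqp : Commute q p) :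
    ({y | y ∈ Sset D x ∧ Commute d y ∧ Commute q y ∧ Commute p y}).ncard = 13 := by
  obtain ⟨R, rfl, rfl, rfl⟩ := R.exists_at_pair_pt hw hd hq hp hdq hdp hqp
  have h := R.fibre (Y := {y | y ∈ Sset D x ∧ Commute (R.pt (ev w 0)) y ∧
    Commute (R.pt (fv w 0)) y ∧ Commute (R.pt (ev w 1)) y}) fun y hy => hy.1
  obtain ⟨e, he⟩ := H43.UCount.exists_code hF
  have hs : ∀ v : Fin 6 → F, ((v ≠ 0 ∧ herm v v = 0) ∧ R.pt v ∈ {y | y ∈ Sset D x ∧
      Commute (R.pt (ev w 0)) y ∧ Commute (R.pt (fv w 0)) y ∧ Commute (R.pt (ev w 1)) y}) ↔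
      ((Equiv.arrowCongr (Equiv.refl (Fin 6)) e) v ≠ 0 ∧
        2 ∣ (Finset.univ.filter fun i => (Equiv.arrowCongr (Equiv.refl (Fin 6)) e) v i ≠ 0).card) ∧
      (Equiv.arrowCongr (Equiv.refl (Fin 6)) e) v 0 = 0 ∧
        (Equiv.arrowCongr (Equiv.refl (Fin 6)) e) v 1 = 0 ∧
        (Equiv.arrowCongr (Equiv.refl (Fin 6)) e) v 2 = (Equiv.arrowCongr (Equiv.refl (Fin 6)) e) v 3 := fun v => by
    rw [← H43.UCount.code_spec hF e he]
    refine and_congr_right fun hv => ?_
    have h1 := iso_std hF hw 0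
    have h2 := iso_std hF hw 1
    rw [Set.mem_setOf_eq, and_iff_right (R.mem v hv.1 hv.2),
      R.commute _ v h1.1.1 h1.1.2 hv.1 hv.2, R.commute _ v h1.2.1 h1.2.2 hv.1 hv.2,
      R.commute _ v h2.1.1 h2.1.2 hv.1 hv.2,
      herm_zero_comm hF, (herm_fv hw hF v 0).1, herm_zero_comm hF, (herm_fv hw hF v 0).2,
      herm_zero_comm hF, (herm_fv hw hF v 1).1]
    simp only [Equiv.arrowCongr_apply, Equiv.refl_symm, Equiv.coe_refl, Function.comp_apply,
      id_eq, he, cx, cy, Matrix.cons_val_zero, Matrix.cons_val_one, EmbeddingLike.apply_eq_iff_eq]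
    constructor
    · rintro ⟨h1, h2, h3⟩
      have hv1 : v 1 = 0 := by
        linear_combination h2 - w ^ 2 * h1 + w ^ 2 * v 1 * H43.Polar.two_zero hF - v 1 * hw
      exact ⟨by linear_combination h1 - hv1, hv1, by linear_combination h3 - v 3 * H43.Polar.two_zero hF⟩
    · rintro ⟨h1, h2, h3⟩
      refine ⟨?_, ?_, ?_⟩
      · simp [h1, h2]
      · simp [h1, h2]
      · rw [h3]; exact add_self hF _
  rw [Nat.card_congr ((Equiv.arrowCongr (Equiv.refl (Fin 6)) e).subtypeEquiv
    (q := fun g : Fin 6 → Fin 4 => (g ≠ 0 ∧ 2 ∣ (Finset.univ.filter fun i => g i ≠ 0).card) ∧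
      g 0 = 0 ∧ g 1 = 0 ∧ g 2 = g 3) hs), Nat.card_eq_fintype_card, count_perp_pair_pt] at h
  omega

/-- A star has 693 members. -/
theorem pts_card_star (R : Pts D x F hF) : (Sset D x).ncard = 693 := by
  have h := R.fibre (Set.Subset.refl (Sset D x))
  rw [Nat.card_congr (Equiv.subtypeEquivRight fun v =>
    ⟨fun hv => hv.1, fun hv => ⟨hv, R.mem v hv.1 hv.2⟩⟩), H43.UCount.card_iso hF] at h
  omega

include hw in
/-- A member of a star commutes with 181 of it, itself included. -/
theorem pts_card_perp (R : Pts D x F hF) {a : G} (ha : a ∈ Sset D x) :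
    ({z | z ∈ Sset D x ∧ Commute a z}).ncard = 181 := by
  obtain ⟨R, rfl⟩ := R.exists_at hw ha
  have h := R.fibre (Y := {z | z ∈ Sset D x ∧ Commute (R.pt (ev w 0)) z}) fun z hz => hz.1
  have hi := (iso_std hF hw 0).1
  rw [Nat.card_congr (Equiv.subtypeEquivRight (q := fun v : Fin 6 → F =>
    (v ≠ 0 ∧ herm v v = 0) ∧ herm v (ev w 0) = 0) fun v => and_congr_right fun hv => by
      rw [Set.mem_setOf_eq, and_iff_right (R.mem v hv.1 hv.2), R.commute _ v hi.1 hi.2 hv.1 hv.2]
      exact herm_zero_comm hF), H43.UCount.card_iso_perp hF hi.1 hi.2] at h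
  omega

include hw in
/-- A commuting set orthogonal to a non-commuting pair has at most five members. -/
theorem pts_clique_pair (R : Pts D x F hF) {d q : G} (hd : d ∈ Sset D x) (hq : q ∈ Sset D x)
    (hdq : ¬ Commute d q) {K : Set G} (hK : K ⊆ Sset D x) (hKd : ∀ y ∈ K, Commute d y ∧ Commute q y)
    (hKK : ∀ y ∈ K, ∀ z ∈ K, Commute y z) : K.ncard ≤ 5 := by
  classical
  obtain ⟨R, rfl, rfl⟩ := R.exists_at_pair hw hd hq hdq
  have h1 := iso_std hF hw 0
  let V : Set (Fin 6 → F) := {v | (v ≠ 0 ∧ herm v v = 0) ∧ R.pt v ∈ K}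
  set T : Submodule F (Fin 6 → F) := Submodule.span F (insert (ev w 0) V) with hT
  set S : Submodule F (Fin 6 → F) := Submodule.span F V with hS
  have hperp : ∀ u ∈ insert (ev w 0) V, ∀ v ∈ insert (ev w 0) V, herm u v = 0 := by
    rintro u (rfl | hu) v (rfl | hv)
    · exact h1.1.2
    · exact (R.commute _ _ h1.1.1 h1.1.2 hv.1.1 hv.1.2).1 (hKd _ hv.2).1
    · exact (herm_zero_comm hF).1 ((R.commute _ _ h1.1.1 h1.1.2 hu.1.1 hu.1.2).1 (hKd _ hu.2).1)
    · exact (R.commute _ _ hu.1.1 hu.1.2 hv.1.1 hv.1.2).1 (hKK _ hu.2 _ hv.2)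
  have hti : H53.SylowPlane.TI T := by
    intro u hu v hv
    induction hu using Submodule.span_induction with
    | mem u hu =>
      induction hv using Submodule.span_induction with
      | mem v hv => exact hperp u hu v hv
      | zero => rw [show (0 : Fin 6 → F) = (0 : F) • u by rw [zero_smul], herm_smul_right hF]; ring
      | add a b _ _ ha hb => rw [herm_add_right hF, ha, hb, add_zero]
      | smul k a _ ha => rw [herm_smul_right hF, ha, mul_zero]
    | zero => rw [show (0 : Fin 6 → F) = (0 : F) • v by rw [zero_smul], herm_smul_left hF, zero_mul]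
    | add a b _ _ ha hb => rw [herm_add_left hF, ha, hb, add_zero]
    | smul k a _ ha => rw [herm_smul_left hF, ha, mul_zero]
  have hne : ev w 0 ∉ S := by
    intro hm
    have h0 : ∀ v ∈ S, herm v (fv w 0) = 0 := by
      intro v hv
      induction hv using Submodule.span_induction with
      | mem v hv =>
        exact (herm_zero_comm hF).1 ((R.commute _ _ h1.2.1 h1.2.2 hv.1.1 hv.1.2).1 (hKd _ hv.2).2)
      | zero => rw [show (0 : Fin 6 → F) = (0 : F) • fv w 0 by rw [zero_smul], herm_smul_left hF, zero_mul]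
      | add a b _ _ ha hb => rw [herm_add_left hF, ha, hb, add_zero]
      | smul k a _ ha => rw [herm_smul_left hF, ha, mul_zero]
    exact one_ne_zero (α := F) (((herm_std hF hw 0 0).2.2.1.trans (if_pos rfl)).symm.trans (h0 _ hm))
  have hlt : S < T := lt_of_le_of_ne (Submodule.span_mono (Set.subset_insert _ _)) fun e =>
    hne (e ▸ Submodule.subset_span (Set.mem_insert _ _))
  have hr := Submodule.finrank_lt_finrank_of_lt hlt
  have h3 := (H53.SylowPlane.ti_bound (hF := hF) hti).1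
  have hcard : Nat.card S ≤ 16 := by
    rw [Module.natCard_eq_pow_finrank (K := F), Nat.card_eq_fintype_card, hF]
    calc 4 ^ Module.finrank F S ≤ 4 ^ 2 := Nat.pow_le_pow_right (by norm_num) (by omega)
      _ = 16 := by norm_num
  have h := R.fibre hK
  have hle : Nat.card {v : Fin 6 → F // (v ≠ 0 ∧ herm v v = 0) ∧ R.pt v ∈ K} + 1 ≤ Nat.card S := by
    haveI : Finite {v : Fin 6 → F // (v ≠ 0 ∧ herm v v = 0) ∧ R.pt v ∈ K} := inferInstance
    have := Nat.card_le_card_of_injective (fun v : Option {v : Fin 6 → F // (v ≠ 0 ∧ herm v v = 0) ∧ R.pt v ∈ K} =>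
      (v.elim (⟨0, zero_mem _⟩ : S) fun v => ⟨v.1, Submodule.subset_span v.2⟩)) (by
        rintro (_ | ⟨u, hu⟩) (_ | ⟨v, hv⟩) e
        · rfl
        · exact absurd (congrArg Subtype.val e).symm hv.1.1
        · exact absurd (congrArg Subtype.val e) hu.1.1
        · exact congrArg some (Subtype.ext (congrArg (fun z : S => (z : Fin 6 → F)) e)))
    rwa [Finite.card_option] at this
  omega

end Cfsg.Agent.H98.M22Class
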