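import Cfsg.Agent.H98.M22Class.Connected
import Cfsg.Agent.H97.Uniq.M22
import Cfsg.Agent.H89.Fi22Type

/-! The class is one of type M(22) and the group is isomorphic to Fi22. -/

set_option autoImplicit false
set_option linter.unusedSectionVars false

open Cfsg
open Cfsg.Agent.H17.UPoints Cfsg.Agent.H43.FischerTwins
open Cfsg.Agent.H43.Polar (IsFrame toFrame vec ev fv cx cy pair Iso)
open Cfsg.Agent.H97.Uniq

namespace Cfsg.Agent.H98.M22Class

variable {G : Type*} [Group G] [Finite G] {D : Set G} {F : Type} [Field F] [Fintype F]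
  [DecidableEq F] {hF : Fintype.card F = 4} (S : Star D F hF)
include S

theorem Star.is_set : Cfsg.IsThreeTranspositionSet D := by
  haveI : Fact (Nat.Prime 2) := ⟨Nat.prime_two⟩
  refine ⟨fun x hx => orderOf_eq_prime (by rw [pow_two]; exact S.sq x hx) (S.ne_one x hx), fun x hx y hy => ?_⟩
  rcases S.connected hx hy with rfl | h | h
  · exact Or.inl (by rw [S.sq y hy, one_pow])
  · exact Or.inl (by rw [h.2.2.mul_pow, pow_two, pow_two, S.sq x hx, S.sq y hy, one_mul])
  · right
    have hb := S.gam2_braid hx h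
    calc (x * y) ^ 3 = (x * y * x) * (y * x * y) := by simp only [pow_succ, pow_zero, one_mul, mul_assoc]
      _ = (x * y) * (x * x) * (y * x) := by rw [← hb]; group
      _ = x * (y * y) * x := by rw [S.sq x hx]; group
      _ = 1 := by rw [S.sq y hy, mul_one, S.sq x hx]

theorem Star.closure_eq {d : G} (hd : d ∈ D) : Subgroup.closure D = ⊤ := by
  refine eq_top_iff.2 fun g _ => ?_
  exact Subgroup.closure_mono (S.comp_subset hd) (S.stab_le hd fun z hz => S.connected hd (S.conj g z (S.comp_subset hd hz)))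

theorem Star.is_class {d : G} (hd : d ∈ D) : Cfsg.IsThreeTranspositionClass D :=
  ⟨S.is_set, ⟨d, hd, Set.ext fun x => ⟨fun hx => isConj_iff.2 (S.trans d hd x hx), fun hx => by
    obtain ⟨g, rfl⟩ := isConj_iff.1 (show IsConj d x from hx)
    exact S.conj g d hd⟩⟩, S.closure_eq hd⟩

theorem Star.center_bot {d : G} (hd : d ∈ D) : Subgroup.center G = ⊥ := by
  refine (Subgroup.eq_bot_iff_forall _).2 fun g hg => ?_
  have hc : ∀ h, Commute g h := fun h => (Subgroup.mem_center_iff.1 hg h).symm
  rcases S.ctr d hd g (hc d).symm fun h _ => hc h with h | h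
  · exact h
  · exfalso
    obtain ⟨c, hc'⟩ := Set.nonempty_of_ncard_ne_zero (s := Gam2 D d) (by rw [S.card_gam2 hd]; norm_num)
    exact hc'.2.1 (h ▸ hc c)

theorem Star.prim {d : G} (hd : d ∈ D) : Cfsg.IsPrimitiveUnderConj D := by
  refine ⟨S.trans, ?_, fun B hB hblk => ?_⟩
  · obtain ⟨c, hc⟩ := Set.nonempty_of_ncard_ne_zero (s := Gam2 D d) (by rw [S.card_gam2 hd]; norm_num)
    exact ⟨d, hd, c, hc.1, fun e => hc.2.1 (e ▸ Commute.refl d)⟩
  refine or_iff_not_imp_left.2 fun hns => ?_
  have hfix : ∀ g, ∀ p ∈ B, g * p * g⁻¹ ∈ B → ∀ q ∈ B, g * q * g⁻¹ ∈ B := by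
    intro g p hp hgp q hq
    have h := (hblk g).resolve_right fun hdis => Set.disjoint_left.1 hdis ⟨p, hp, rfl⟩ hgp
    exact h.le ⟨q, hq, rfl⟩
  have hadj : ∀ p ∈ B, ∀ q ∈ B, q ∈ Sset D p → Sset D p ⊆ B := by
    intro p hp q hq hqp r hr
    obtain ⟨g, hg, e⟩ := S.sset_trans (hB hp) hqp hr
    rw [← e]
    exact hfix g p hp (by rw [hg.symm.eq, mul_inv_cancel_right]; exact hp) q hq
  obtain ⟨p, hp, q, hq, hne⟩ : ∃ p ∈ B, ∃ q ∈ B, p ≠ q := by
    by_contra h
    push Not at h
    exact hns fun x hx y hy => h x hx y hy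
  obtain ⟨p, hp, q, hq, hpq⟩ : ∃ p ∈ B, ∃ q ∈ B, q ∈ Sset D p := by
    rcases S.connected (hB hp) (hB hq) with h | h | h
    · exact absurd h.symm hne
    · exact ⟨p, hp, q, hq, h⟩
    obtain ⟨-, hpq, a, ha⟩ := h
    obtain ⟨w, -, -, hw⟩ := H43.exists_omega hF
    obtain ⟨R₀⟩ := S.models a ha.1.1
    obtain ⟨R, ep, eq⟩ := R₀.exists_at_pair hw (sset_swap (hB hp) ha.1) (sset_swap (hB hq) ha.2) hpq
    have i0 := iso_std hF hw 0
    have i1 := iso_std hF hw 1
    have hs := herm_std hF hw
    have s00 : herm (ev w 0) (fv w 0) = 1 := (hs 0 0).2.2.1.trans (if_pos rfl)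
    have s00' : herm (fv w 0) (ev w 0) = 1 := (hs 0 0).2.2.2.trans (if_pos rfl)
    have s01 : herm (fv w 0) (ev w 1) = 0 := (hs 0 1).2.2.2.trans (if_neg (by decide))
    have s10 : herm (ev w 1) (fv w 0) = 0 := (hs 1 0).2.2.1.trans (if_neg (by decide))
    set u := ev w 0 + ev w 1 with hu
    have hu0 : u ≠ 0 ∧ herm u u = 0 := by
      refine ⟨fun e => one_ne_zero (α := F) ?_, ?_⟩
      · have := congrArg (fun z => herm z (fv w 0)) e
        simp only [hu, herm_add_left hF, s00, s10, add_zero,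
          show (0 : Fin 6 → F) = (0 : F) • ev w 0 by rw [zero_smul], herm_smul_left hF, zero_mul] at this
        exact this
      · simp only [hu, herm_add_left hF, herm_add_right hF, (hs _ _).1, add_zero]
    have hfu : herm (fv w 0) u = 1 := by rw [hu, herm_add_right hF, s00', s01, add_zero]
    have t1 := third_iso hF hu0.2 i0.2.1 i0.2.2
    have c1 := R.conj u (fv w 0) hu0.1 hu0.2 i0.2.1 i0.2.2
    rw [hfu, one_smul] at t1 c1
    have c2 := R.conj (ev w 0) (fv w 0 + u) i0.1.1 i0.1.2 t1.1 t1.2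
    have h3 : herm (fv w 0 + u) (ev w 0) = 1 := by
      rw [herm_add_left hF, s00', hu, herm_add_left hF, (hs 0 0).1, (hs 1 0).1, add_zero, add_zero]
    have t2 := third_iso hF i0.1.2 t1.1 t1.2
    rw [h3, one_smul] at c2 t2
    have ev' : fv w 0 + u + ev w 0 = fv w 0 + ev w 1 := by
      funext i
      simp only [hu, Pi.add_apply]
      linear_combination (ev w 0 i) * add_self hF (1 : F)
    rw [ev'] at c2 t2
    rw [← c1, ep] at c2
    set g := p * R.pt u with hg
    have hgp : g * p * g⁻¹ = p := by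
      have : Commute (R.pt u) p := by
        rw [← ep]
        refine (R.commute _ _ hu0.1 hu0.2 i0.1.1 i0.1.2).2 ?_
        rw [hu, herm_add_left hF, (hs 0 0).1, (hs 1 0).1, add_zero]
      exact mul_inv_eq_iff_eq_mul.2 ((Commute.refl p).mul_left this).eq
    have hgq : g * q * g⁻¹ = R.pt (fv w 0 + ev w 1) := by
      rw [← c2, hg, ← eq]; group
    refine ⟨q, hq, _, hfix g p hp (hgp.symm ▸ hp) q hq, ?_⟩
    rw [hgq]
    refine ⟨(R.mem _ t2.1 t2.2).1, ?_, ?_⟩
    · rw [← eq]
      refine R.pt_ne t2.1 t2.2 i0.2.1 i0.2.2 fun k e => ?_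
      have h1 := congrArg (fun z => herm z (fv w 1)) e
      simp only [herm_add_left hF, herm_smul_left hF, (hs 0 1).2.1,
        show herm (ev w 1) (fv w 1) = 1 from (hs 1 1).2.2.1.trans (if_pos rfl), mul_zero, zero_add] at h1
      exact one_ne_zero h1
    · rw [← eq]
      refine (R.commute _ _ i0.2.1 i0.2.2 t2.1 t2.2).2 ?_
      rw [herm_add_right hF, i0.2.2, s01, add_zero]
  refine Set.Subset.antisymm hB fun x hx => ?_
  have hp' : Sset D p ⊆ B := hadj p hp q hq hpq
  rcases S.connected (hB hp) hx with h | h | ⟨-, -, a, ha⟩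
  · exact h ▸ hp
  · exact hp' h
  · exact hadj a (hp' ha.1) p hp (sset_swap (hB hp) ha.1) (sset_swap hx ha.2)

/-- The environment of a class of type M(22). -/
theorem Star.env {d : G} (hd : d ∈ D) (hiso : Nonempty (↥(Subgroup.closure (Sset D d)) ⧸
    Subgroup.center ↥(Subgroup.closure (Sset D d)) ≃* Cfsg.PSU 6 F 2)) : Env D F hF where
  ctx :=
    { cls := S.is_class hd
      prim := S.prim hd
      center := S.center_bot hd
      card := hF
      iso := fun a ha => by
        obtain ⟨g, rfl⟩ := S.trans d hd a ha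
        obtain ⟨φ⟩ := hiso
        obtain ⟨e⟩ := H89.M22.nonempty_quot_center
          (((Subgroup.closure (Sset D d)).equivMapOfInjective (MulAut.conj g).toMonoidHom
            (MulAut.conj g).injective).trans
            (MulEquiv.subgroupCongr (H89.M22.map_closure_sset S.conj g d)))
        exact ⟨e.symm.trans φ⟩ }
  models := S.models
  cent := S.cent
  card := by
    rw [show D = Comp D d from Set.Subset.antisymm (fun x hx => S.connected hd hx) (S.comp_subset hd),
      S.card_comp hd]
  common126 := fun a ha c hc hac => by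
    rw [H43.M22.common_far_eq hac]
    rcases S.connected ha hc with h | h | h
    · exact absurd (h ▸ Commute.refl a) hac
    · exact absurd h.2.2 hac
    · exact (S.regular ha hc hac h.2.2).1

omit S in
/-- The group and class are those of Fi22. -/
theorem exists_iso (d : G) (hd : orderOf d = 2)
    (hq : Cfsg.IsQuasisimple (Subgroup.centralizer ({d} : Set G)))
    [((Subgroup.zpowers d).subgroupOf (Subgroup.centralizer ({d} : Set G))).Normal]
    (K : Type) [Field K] [Fintype K] (hK : Fintype.card K = 4)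
    (e : (Subgroup.centralizer ({d} : Set G)) ⧸
      (Subgroup.zpowers d).subgroupOf (Subgroup.centralizer ({d} : Set G)) ≃* Cfsg.PSU 6 K 2)
    (hnwc : ∃ g : G, g * d * g⁻¹ ∈ Subgroup.centralizer ({d} : Set G) ∧ g * d * g⁻¹ ≠ d) :
    Cfsg.IsThreeTranspositionClass (conjugatesOf d) ∧
      ∃ f : G ≃* Cfsg.Spor.Fi22, f '' conjugatesOf d = H89.Fi22Type.cls := by
  classical
  have S := exists_star d hd hq K hK e hnwc
  have hdD : d ∈ conjugatesOf d := mem_conjugatesOf_self
  set C := Subgroup.centralizer ({d} : Set G) with hC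
  have hCeq : Subgroup.closure (Sset (conjugatesOf d) d) = C :=
    le_antisymm ((Subgroup.closure_le _).2 fun y hy => Subgroup.mem_centralizer_singleton_iff.2 hy.2.2.symm.eq)
      fun g hg => S.cent d hdD g (Subgroup.mem_centralizer_singleton_iff.1 hg).symm
  have hz : Subgroup.center ↥C = (Subgroup.zpowers d).subgroupOf C := by
    ext x
    rw [Subgroup.mem_center_iff, Subgroup.mem_subgroupOf]
    constructor
    · intro h
      rcases S.ctr d hdD x (Subgroup.mem_centralizer_singleton_iff.1 x.2).symm (fun y hy =>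
        show (x : G) * y = y * x from
          (congrArg Subtype.val (h ⟨y, Subgroup.mem_centralizer_singleton_iff.2 hy.symm.eq⟩)).symm) with e | e
      · rw [e]; exact one_mem _
      · rw [e]; exact Subgroup.mem_zpowers d
    · intro h y
      obtain ⟨k, hk⟩ := Subgroup.mem_zpowers_iff.1 h
      refine Subtype.ext ?_
      show (y : G) * x = x * y
      rw [← hk]
      exact ((show Commute (y : G) d from Subgroup.mem_centralizer_singleton_iff.1 y.2).zpow_right k).eq
  obtain ⟨e'⟩ := H89.M22.nonempty_quot_center (MulEquiv.subgroupCongr hCeq)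
  have E := S.env hdD ⟨e'.trans ((QuotientGroup.quotientMulEquivOfEq hz).trans e)⟩
  haveI := H89.Fi22Type.finite_fi22
  have hcls := H89.Fi22Type.cls_class
  obtain ⟨F', i1, i2, i3, hF', E'⟩ := exists_env (H17.class_group hcls) H89.Fi22Type.primitive
    H89.Fi22Type.isOfTypeM22
  obtain ⟨φ, hφ⟩ := exists_good E E' hdD (mem_conjugatesOf_self : H4.ThreeTransp.Fi22.dd ∈ H89.Fi22Type.cls)
  obtain ⟨f, h1, -, -⟩ := m22_extend E E' E.ctx.center E'.ctx.center hdD mem_conjugatesOf_self hφ
  exact ⟨S.is_class hdD, f, h1⟩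

end Cfsg.Agent.H98.M22Class
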