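import Cfsg.Agent.H98.M22Class.Core
import Cfsg.Agent.H28.ZStar
import Mathlib.GroupTheory.SchurZassenhaus
import Mathlib.GroupTheory.FixedPointFree

/-!
The centralizer of the product of two commuting members permutes the two: the image of one is isolated
modulo the product, and the odd core is inverted by an odd set of members with trivial product.
-/

set_option autoImplicit false
set_option linter.unusedSectionVars false

open Cfsg
open Cfsg.Agent.H17.UPoints Cfsg.Agent.H43.FischerTwins
open Cfsg.Agent.H97.Uniq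

namespace Cfsg.Agent.H98.M22Class

variable {G : Type*} [Group G] [Finite G] {D : Set G} {F : Type} [Field F] [Fintype F]
  [DecidableEq F] {hF : Fintype.card F = 4} (S : Star D F hF)
include S

/-- A member stabilising a component lies in it. -/
theorem Star.mem_of_stab {d c : G} (hd : d ∈ D) (hc : c ∈ D) (hs : c ∈ stab (Comp D d)) : c ∈ Comp D d := by
  obtain ⟨x, hx, hcx⟩ := S.fix_member hd hs (S.sq c hc)
  rw [← S.comp_eq hd hx]
  exact comp_commute hc hcx.symm

/-- An element mapping a member into its component stabilises it. -/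
theorem Star.stab_of_image {d g : G} (hd : d ∈ D) (hg : g * d * g⁻¹ ∈ Comp D d) : g ∈ stab (Comp D d) := by
  intro z hz
  have := S.comp_conj g hz
  rwa [S.comp_eq hd hg] at this

/-- No member interchanges a commuting pair. -/
theorem Star.no_swap {p q c : G} (hp : p ∈ D) (hq : q ∈ Sset D p) (hc : c ∈ D) : c * p * c⁻¹ ≠ q := by
  intro h
  have hs : c ∈ stab (Comp D p) := S.stab_of_image hp (h ▸ comp_of_sset hq)
  by_cases hpc : Commute p c
  · rw [hpc.symm.eq, mul_inv_cancel_right] at h
    exact hq.2.1 h.symm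
  rcases S.mem_of_stab hp hc hs with e | e | e
  · exact hpc (e ▸ Commute.refl c)
  · exact hpc e.2.2
  have hb := S.gam2_braid hp e
  rw [S.inv_eq hc] at h
  rw [h] at hb
  have : c = q := by
    calc c = p * (p * c * p) * p := by
          rw [show p * (p * c * p) * p = (p * p) * c * (p * p) by group, S.sq p hp, one_mul, mul_one]
      _ = p * q * p := by rw [hb]
      _ = q := by rw [hq.2.2.eq, mul_assoc, S.sq p hp, mul_one]
  exact hpc (this ▸ hq.2.2)

omit S in
theorem conj_prod {G : Type*} [Group G] {L : Subgroup G} :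
    ∀ {l : List G}, (∀ e ∈ l, ∀ y ∈ L, e * y * e⁻¹ = y⁻¹) →
      ∀ y ∈ L, l.prod * y * l.prod⁻¹ = if Even l.length then y else y⁻¹ := by
  intro l
  induction l with
  | nil => intro _ y _; simp
  | cons e l ih =>
    intro h y hy
    rw [List.prod_cons, show e * l.prod * y * (e * l.prod)⁻¹ = e * (l.prod * y * l.prod⁻¹) * e⁻¹ by group,
      ih (fun a ha => h a (List.mem_cons_of_mem _ ha)) y hy]
    have he := h e (List.mem_cons_self ..)
    by_cases hl : Even l.length
    · rw [if_pos hl, he y hy, if_neg (by simp [List.length_cons, Nat.even_add_one, hl])]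
    · rw [if_neg hl, he _ (inv_mem hy), inv_inv, if_pos (by simp [List.length_cons, Nat.even_add_one, hl])]

/-- The centralizer of the product of a commuting pair permutes the pair. -/
theorem Star.pair_perm {a b g : G} (ha : a ∈ D) (hb : b ∈ Sset D a) (hg : Commute (a * b) g) :
    g * a * g⁻¹ = a ∨ g * a * g⁻¹ = b := by
  classical
  have cab : Commute a b := hb.2.2
  set x := a * b with hx
  have hxx : x * x = 1 := by rw [hx, cab.symm.mul_mul_mul_comm, S.sq a ha, S.sq b hb.1, one_mul]
  have hx1 : x ≠ 1 := fun h => hb.2.1 (by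
    rw [← inv_eq_of_mul_eq_one_right (show a * b = 1 from h), S.inv_eq ha])
  have hbx : b = a * x := by rw [hx, ← mul_assoc, S.sq a ha, one_mul]
  have hax : Commute a x := (Commute.refl a).mul_right cab
  set H := Subgroup.centralizer ({x} : Set G) with hH
  have memH : ∀ {h : G}, Commute x h → h ∈ H := fun h => Subgroup.mem_centralizer_singleton_iff.2 h.symm.eq
  have ofH : ∀ h : ↥H, Commute x h := fun h => (Subgroup.mem_centralizer_singleton_iff.1 h.2).symm
  let xh : ↥H := ⟨x, memH (Commute.refl x)⟩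
  let ah : ↥H := ⟨a, memH hax.symm⟩
  let Xh : Subgroup ↥H :=
    { carrier := {y | y = 1 ∨ y = xh}
      mul_mem' := by
        rintro u v (rfl | rfl) (rfl | rfl)
        exacts [Or.inl (one_mul 1), Or.inr (one_mul _), Or.inr (mul_one _), Or.inl (Subtype.ext hxx)]
      one_mem' := Or.inl rfl
      inv_mem' := by
        rintro u (rfl | rfl)
        exacts [Or.inl inv_one, Or.inr (Subtype.ext (inv_eq_of_mul_eq_one_right hxx))] }
  have memX : ∀ y : ↥H, y ∈ Xh ↔ (y : G) = 1 ∨ (y : G) = x := fun y =>
    ⟨fun h => h.elim (fun e => Or.inl (congrArg Subtype.val e)) fun e => Or.inr (congrArg Subtype.val e),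
      fun h => h.elim (fun e => Or.inl (Subtype.ext e)) fun e => Or.inr (Subtype.ext e)⟩
  haveI hXn : Xh.Normal := ⟨fun y hy h => by
    rcases hy with rfl | rfl
    · exact Or.inl (by group)
    · refine Or.inr (Subtype.ext ?_)
      show (h : G) * x * (h : G)⁻¹ = x
      rw [← (ofH h).eq, mul_inv_cancel_right]⟩
  let π := QuotientGroup.mk' Xh
  have hπ : ∀ y, π y = 1 ↔ (y : G) = 1 ∨ (y : G) = x := fun y => (QuotientGroup.eq_one_iff y).trans (memX y)
  have hne : ¬ ((a : G) = 1 ∨ a = x) := by
    rintro (h | h)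
    · exact S.ne_one a ha h
    · exact S.ne_one b hb.1 (mul_left_cancel (h.symm.trans (mul_one a).symm))
  have hord : orderOf (π ah) = 2 := by
    refine orderOf_eq_prime ?_ fun h => hne ((hπ ah).1 h)
    rw [← map_pow, show ah ^ 2 = 1 from Subtype.ext (by rw [pow_two]; exact S.sq a ha), map_one]
  have hiso : H28.IsIsolatedInvolution (π ah) := by
    refine ⟨hord, fun q hq => ?_⟩
    obtain ⟨h, rfl⟩ := QuotientGroup.mk'_surjective Xh q
    rw [← map_inv, ← map_mul, ← map_mul] at hq ⊢
    set a' : G := (h : G) * a * (h : G)⁻¹ with ha'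
    set b' : G := (h : G) * b * (h : G)⁻¹ with hb'
    have hb's : b' ∈ Sset D a' := S.sset_conj _ hb
    have ha'D : a' ∈ D := S.conj _ a ha
    have hx' : a' * b' = x := by
      rw [ha', hb', show (h : G) * a * (h : G)⁻¹ * ((h : G) * b * (h : G)⁻¹) = h * (a * b) * (h : G)⁻¹ by group,
        ← hx, ← (ofH h).eq, mul_inv_cancel_right]
    have hb'x : b' = a' * x := by rw [← hx', ← mul_assoc, S.sq a' ha'D, one_mul]
    have hcom : a * a' * a * a' = 1 ∨ a * a' * a * a' = x := by
      have h1 : π (ah * (h * ah * h⁻¹) * ah * (h * ah * h⁻¹)) = 1 := by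
        have s1 : π ah * π ah = 1 := by rw [← pow_two, ← hord, pow_orderOf_eq_one]
        simp only [map_mul]
        rw [← map_mul π h ah, ← map_mul π (h * ah) h⁻¹]
        calc π ah * π (h * ah * h⁻¹) * π ah * π (h * ah * h⁻¹)
            = π ah * (π (h * ah * h⁻¹) * π ah) * π (h * ah * h⁻¹) := by group
          _ = (π ah * π ah) * (π (h * ah * h⁻¹) * π (h * ah * h⁻¹)) := by
              rw [show π (h * ah * h⁻¹) * π ah = π ah * π (h * ah * h⁻¹) from hq.eq.symm]
              simp only [mul_assoc]
          _ = 1 := by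
            rw [s1, one_mul, ← map_mul, show h * ah * h⁻¹ * (h * ah * h⁻¹) = h * (ah * ah) * h⁻¹ by group,
              show ah * ah = 1 from Subtype.ext (S.sq a ha), mul_one, mul_inv_cancel, map_one]
      exact (hπ _).1 h1
    have heq : a' = a ∨ a' = b := by
      rcases hcom with hc | hc
      · have caa : Commute a a' := by
          show a * a' = a' * a
          calc a * a' = (a * a' * a * a') * (a' * a) := by
                rw [show a * a' * a * a' * (a' * a) = a * a' * (a * (a' * a') * a) by group, S.sq a' ha'D,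
                  mul_one, S.sq a ha, mul_one]
            _ = a' * a := by rw [hc, one_mul]
        by_contra hne'
        push Not at hne'
        have cxa' : Commute x a' := by
          rw [← hx']; exact (Commute.refl a').mul_left hb's.2.2.symm
        have cba' : Commute b a' := by rw [hbx]; exact caa.mul_left cxa'
        have e : a' * a * b = b' := by rw [hb'x, mul_assoc]
        exact S.no_two ha hb ⟨ha'D, hne'.1, caa⟩ cba' hne'.2.symm (e ▸ hb's.1)
      · exfalso
        refine S.no_swap ha'D hb's ha ?_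
        rw [S.inv_eq ha, hb'x]
        calc a * a' * a = a * a' * a * a' * a' := by rw [mul_assoc (a * a' * a), S.sq a' ha'D, mul_one]
          _ = x * a' := by rw [hc]
          _ = a' * x := by
            have cxa' : Commute x a' := by
              rw [← hx']; exact (Commute.refl a').mul_left hb's.2.2.symm
            exact cxa'.eq
    refine (QuotientGroup.eq (s := Xh)).2 ((memX _).2 ?_)
    show ((h : G) * a * (h : G)⁻¹)⁻¹ * a = 1 ∨ ((h : G) * a * (h : G)⁻¹)⁻¹ * a = x
    rcases heq with e | e
    · exact Or.inl (by rw [← ha', e, inv_mul_cancel])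
    · exact Or.inr (by rw [← ha', e, S.inv_eq hb.1, hx, cab.eq])
  -- the odd core
  set N := Cfsg.pPrimeCore 2 (↥H ⧸ Xh) with hN
  have hNodd : Odd (Nat.card N) := Nat.coprime_two_right.1 (H19.pPrimeCore_coprime 2)
  haveI := H19.pPrimeCore_normal 2 (↥H ⧸ Xh)
  set P : Subgroup ↥H := N.comap π with hP
  have hXP : Xh ≤ P := fun y hy => by
    show π y ∈ N
    rw [show π y = 1 from (QuotientGroup.eq_one_iff y).2 hy]; exact one_mem _
  have hXcard : Nat.card (Xh.subgroupOf P) = 2 := by
    rw [Nat.card_congr (Subgroup.subgroupOfEquivOfLe hXP).toEquiv, show Nat.card Xh = ((Xh : Set ↥H)).ncard from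
      Nat.card_coe_set_eq _, show (Xh : Set ↥H) = {1, xh} from Set.ext fun y => Iff.rfl, Set.ncard_pair]
    exact fun h => hx1 (congrArg Subtype.val h).symm
  haveI : (Xh.subgroupOf P).Normal := inferInstance
  have hidx : (Xh.subgroupOf P).index = Nat.card N := by
    let f : ↥P →* ↥N := π.subgroupComap N
    have hf : Function.Surjective f := fun n => by
      obtain ⟨y, hy⟩ := QuotientGroup.mk'_surjective Xh n.1
      exact ⟨⟨y, show π y ∈ N by rw [show π y = n.1 from hy]; exact n.2⟩, Subtype.ext hy⟩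
    have hk : f.ker = Xh.subgroupOf P := by
      ext y
      rw [MonoidHom.mem_ker, Subgroup.mem_subgroupOf, ← QuotientGroup.eq_one_iff]
      exact ⟨fun h => congrArg Subtype.val h, fun h => Subtype.ext h⟩
    rw [← hk, Subgroup.index_ker, MonoidHom.range_eq_top.2 hf, Subgroup.card_top]
  obtain ⟨L₀, hL₀⟩ := Subgroup.exists_right_complement'_of_coprime (N := Xh.subgroupOf P) (by
    rw [hXcard, hidx]; exact Nat.coprime_two_left.2 hNodd)
  have hLcard : Nat.card L₀ = Nat.card N := by rw [← hL₀.symm.index_eq_card, hidx]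
  set n := Nat.card N with hn
  let L : Subgroup G := (L₀.map P.subtype).map H.subtype
  have memL : ∀ y, y ∈ L ↔ ∃ p : ↥P, ((p : ↥H) : G) = y ∧ y ^ n = 1 := by
    intro y
    constructor
    · rintro ⟨_, ⟨p, hp, rfl⟩, rfl⟩
      refine ⟨p, rfl, ?_⟩
      have h : (⟨p, hp⟩ : L₀) ^ n = 1 := by rw [← hLcard]; exact pow_card_eq_one'
      exact congrArg (fun z : L₀ => (((z : ↥P) : ↥H) : G)) h
    · rintro ⟨p, rfl, hp⟩
      obtain ⟨⟨⟨z, hz⟩, ⟨l, hl⟩⟩, he⟩ := hL₀.2 p
      have hel : (z : ↥P) * l = p := he
      rcases (memX _).1 (Subgroup.mem_subgroupOf.1 hz) with h | h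
      · refine ⟨_, ⟨l, hl, rfl⟩, ?_⟩
        rw [← hel]
        show (((l : ↥P) : ↥H) : G) = ((z : ↥H) : G) * ((l : ↥H) : G)
        rw [h, one_mul]
      · exfalso
        have hl1 : (((l : ↥P) : ↥H) : G) ^ n = 1 := by
          have h' : (⟨l, hl⟩ : L₀) ^ n = 1 := by rw [← hLcard]; exact pow_card_eq_one'
          exact congrArg (fun z : L₀ => (((z : ↥P) : ↥H) : G)) h'
        rw [← hel, show (((z * l : ↥P) : ↥H) : G) = ((z : ↥H) : G) * ((l : ↥H) : G) from rfl, h,
          (ofH (l : ↥H)).mul_pow, hl1, mul_one] at hp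
        obtain ⟨m, hm⟩ := hNodd
        rw [hm, pow_succ, pow_mul, pow_two, hxx, one_pow, one_mul] at hp
        exact hx1 hp
  have hLodd : Odd (Nat.card L) := by
    rw [Subgroup.card_map_of_injective H.subtype_injective, Subgroup.card_map_of_injective P.subtype_injective,
      hLcard]
    exact hNodd
  have hLx : ∀ y ∈ L, Commute x y := fun y hy => by
    obtain ⟨p, rfl, -⟩ := (memL y).1 hy
    exact ofH p
  have hLnorm : ∀ h, Commute x h → ∀ y ∈ L, h * y * h⁻¹ ∈ L := by
    intro h hh y hy
    obtain ⟨p, rfl, hp⟩ := (memL y).1 hy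
    haveI : P.Normal := inferInstance
    refine (memL _).2 ⟨⟨_, Subgroup.Normal.conj_mem (H := P) ‹_› p.1 p.2 ⟨h, memH hh⟩⟩, rfl, ?_⟩
    rw [conj_pow, hp, mul_one, mul_inv_cancel]
  have hCa : ∀ y ∈ L, Commute a y → y = 1 := by
    intro y hy hay
    have h := S.core_triv ha hb (L ⊓ Subgroup.centralizer ({a} : Set G))
      (Odd.of_dvd_nat hLodd (Subgroup.card_dvd_of_le inf_le_left))
      (fun z hz => ⟨(Subgroup.mem_centralizer_singleton_iff.1 hz.2).symm, by
        rw [hbx]; exact (show Commute a z from (Subgroup.mem_centralizer_singleton_iff.1 hz.2).symm).mul_left (hLx z hz.1)⟩)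
      (fun g hga hgb z hz => ⟨hLnorm g (hga.mul_left hgb) z hz.1, by
        refine Subgroup.mem_centralizer_singleton_iff.2 ?_
        have := (Commute.conj_iff g).2 (show Commute a z from (Subgroup.mem_centralizer_singleton_iff.1 hz.2).symm)
        rw [hga.symm.eq, mul_inv_cancel_right] at this
        exact this.symm.eq⟩)
    exact Subgroup.mem_bot.1 (h ▸ ⟨hy, Subgroup.mem_centralizer_singleton_iff.2 hay.symm.eq⟩)
  have inverts : ∀ e ∈ D, Commute x e → (∀ y ∈ L, Commute e y → y = 1) → ∀ y ∈ L, e * y * e⁻¹ = y⁻¹ := by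
    intro e he hxe hfix y hy
    let φ : ↥L →* ↥L :=
      { toFun := fun z => ⟨e * z * e⁻¹, hLnorm e hxe z z.2⟩
        map_one' := Subtype.ext (by show e * (1 : G) * e⁻¹ = 1; group)
        map_mul' := fun u v => Subtype.ext (by
          show e * ((u : G) * v) * e⁻¹ = e * u * e⁻¹ * (e * v * e⁻¹); group) }
    have h1 : MonoidHom.FixedPointFree φ := fun z hz =>
      Subtype.ext (hfix z z.2 (mul_inv_eq_iff_eq_mul.1 (congrArg Subtype.val hz)))
    have h2 : Function.Involutive φ := fun z => Subtype.ext (by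
      show e * (e * z * e⁻¹) * e⁻¹ = z
      rw [S.inv_eq he, show e * (e * (z : G) * e) * e = (e * e) * z * (e * e) by group, S.sq e he, one_mul, mul_one])
    have := congrFun (h1.coe_eq_inv_of_involutive h2) ⟨y, hy⟩
    exact congrArg Subtype.val this
  have inva := inverts a ha hax.symm hCa
  have invb : ∀ y ∈ L, b * y * b⁻¹ = y⁻¹ := fun y hy => by
    rw [hbx, show a * x * y * (a * x)⁻¹ = a * (x * y * x⁻¹) * a⁻¹ by group, (hLx y hy).eq,
      mul_inv_cancel_right, inva y hy]
  have invc : ∀ e ∈ D, Commute a e → Commute b e → ∀ y ∈ L, e * y * e⁻¹ = y⁻¹ := by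
    intro e he hae hbe
    by_cases ea : e = a
    · exact ea ▸ inva
    by_cases eb : e = b
    · exact eb ▸ invb
    refine inverts e he (hae.mul_left hbe) fun y hy hey => hCa y hy ?_
    have haE : a ∈ Sset D e := ⟨ha, fun h => ea h.symm, hae.symm⟩
    have hbE : b ∈ Sset D e := ⟨hb.1, fun h => eb h.symm, hbe.symm⟩
    have him : ∀ z ∈ Sset D e, y * z * y⁻¹ ∈ Sset D e := fun z hz => by
      have := S.sset_conj y hz
      rwa [hey.symm.eq, mul_inv_cancel_right] at this
    set a' := y * a * y⁻¹ with ha'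
    set b' := y * b * y⁻¹ with hb'
    have cab' : Commute a' b' := (Commute.conj_iff y).2 cab
    have hab' : a' * b' = x := by
      rw [ha', hb', show y * a * y⁻¹ * (y * b * y⁻¹) = y * (a * b) * y⁻¹ by group, ← hx, ← (hLx y hy).eq,
        mul_inv_cancel_right]
    have cax : Commute a' (a * b) := by rw [← hx, ← hab']; exact (Commute.refl a').mul_right cab'
    obtain ⟨c1, c2⟩ := S.commute_pair he haE hbE (him a haE) cab hb.2.1.symm cax
    by_cases e1 : a' = a
    · exact (mul_inv_eq_iff_eq_mul.1 e1).symm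
    exfalso
    by_cases e2 : a' = b
    · obtain ⟨m, hm⟩ := (show Odd (orderOf y) from Odd.of_dvd_nat hLodd
        (by rw [← Subgroup.orderOf_mk y hy]; exact orderOf_dvd_natCard _))
      have e3 : b' = a := by
        rw [e2] at hab'
        rw [hx, cab.eq] at hab'
        exact mul_left_cancel hab'
      have hy2 : Commute (y ^ 2) a := by
        refine mul_inv_eq_iff_eq_mul.1 ?_
        rw [pow_two, show y * y * a * (y * y)⁻¹ = y * (y * a * y⁻¹) * y⁻¹ by group, ← ha', e2, ← hb', e3]
      have ey : y = (y ^ 2) ^ m.succ := by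
        rw [← pow_mul, show 2 * m.succ = orderOf y + 1 by omega, pow_succ, pow_orderOf_eq_one, one_mul]
      have hya : Commute y a := ey ▸ hy2.pow_left _
      exact e1 (by rw [ha', hya.eq, mul_inv_cancel_right])
    refine S.no_two ha hb ⟨(him a haE).1, e1, c1.symm⟩ c2.symm (Ne.symm e2) ?_
    rw [show a' * a * b = b' by
      rw [mul_assoc, ← hx, ← hab', ← mul_assoc, S.sq a' (him a haE).1, one_mul]]
    exact (him b hbE).1
  have hLtriv : ∀ y ∈ L, y = 1 := by
    obtain ⟨a0, ha0, l, hl, hl', hp⟩ := S.rel a ha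
    obtain ⟨g0, hg0, e0⟩ := S.sset_trans ha ha0 hb
    intro y hy
    have h := conj_prod (l := l.map (MulAut.conj g0)) (L := L) (fun e he y hy => by
      obtain ⟨e', he', rfl⟩ := List.mem_map.1 he
      refine invc _ (S.conj g0 e' (hl' e' he').1) ?_ ?_ y hy
      · have := (Commute.conj_iff g0).2 (hl' e' he').2.1
        rwa [hg0.symm.eq, mul_inv_cancel_right] at this
      · have := (Commute.conj_iff g0).2 (hl' e' he').2.2
        rwa [e0] at this) y hy
    rw [← map_list_prod, hp, map_one, List.length_map, if_neg (Nat.not_even_iff_odd.2 hl), one_mul, inv_one,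
      mul_one] at h
    have h2 : y ^ 2 = 1 := by rw [pow_two]; nth_rewrite 1 [h]; exact inv_mul_cancel y
    have hoy : Odd (orderOf y) := Odd.of_dvd_nat hLodd
      (by rw [← Subgroup.orderOf_mk y hy]; exact orderOf_dvd_natCard _)
    exact orderOf_eq_one_iff.1 (Nat.eq_one_of_dvd_coprimes (Nat.coprime_two_right.2 hoy) dvd_rfl
      (orderOf_dvd_of_pow_eq_one h2))
  have hn1 : n = 1 := by
    rw [← hLcard, ← Subgroup.card_map_of_injective P.subtype_injective,
      ← Subgroup.card_map_of_injective H.subtype_injective]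
    exact Subgroup.card_eq_one.2 ((Subgroup.eq_bot_iff_forall L).2 hLtriv)
  have hz := H28.zStar hiso (π ⟨g, memH hg⟩)
  rw [← hN, Subgroup.card_eq_one.1 hn1, Subgroup.mem_bot, ← map_inv, ← map_inv, ← map_mul, ← map_mul, ← map_mul,
    hπ] at hz
  have hz' : a * g * a⁻¹ * g⁻¹ = 1 ∨ a * g * a⁻¹ * g⁻¹ = x := hz
  have key : a * g * a⁻¹ * g⁻¹ = a * (g * a * g⁻¹) := by rw [S.inv_eq ha]; group
  rw [key] at hz'
  rcases hz' with h | h
  · left
    rw [← inv_eq_of_mul_eq_one_right h, S.inv_eq ha]
  · right
    exact mul_left_cancel h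

/-- A member commuting with the product of a pair commutes with both. -/
theorem Star.pair_member {a b c : G} (ha : a ∈ D) (hb : b ∈ Sset D a) (hc : c ∈ D) (hcx : Commute (a * b) c) :
    Commute c a ∧ Commute c b := by
  have h : Commute c a := by
    rcases S.pair_perm ha hb hcx with h | h
    · exact mul_inv_eq_iff_eq_mul.1 h
    · exact absurd h (S.no_swap ha hb hc)
  refine ⟨h, ?_⟩
  have h' := h.inv_right.mul_right hcx.symm
  rwa [inv_mul_cancel_left] at h'

/-- The centralizer of the product of a pair stabilises its component. -/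
theorem Star.pair_stab {a b g : G} (ha : a ∈ D) (hb : b ∈ Sset D a) (hg : Commute (a * b) g) :
    g ∈ stab (Comp D a) := by
  refine S.stab_of_image ha ?_
  rcases S.pair_perm ha hb hg with h | h <;> rw [h]
  exacts [comp_self a, comp_of_sset hb]

end Cfsg.Agent.H98.M22Class
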