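import Cfsg.Agent.H98.M22Class.Component
import Mathlib.GroupTheory.Perm.Cycle.Type

/-!
The stabiliser of a component acts on it by even permutations, so each of its involutions fixes a member.
-/

set_option autoImplicit false
set_option linter.unusedSectionVars false

open Cfsg
open Cfsg.Agent.H17.UPoints Cfsg.Agent.H43.FischerTwins
open Cfsg.Agent.H43.Polar (IsFrame toFrame vec ev fv cx cy pair Iso)
open Cfsg.Agent.H97.Uniq

namespace Cfsg.Agent.H98.M22Class

variable {G : Type*} [Group G] [Finite G] {D : Set G} {F : Type} [Field F] [Fintype F]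
  [DecidableEq F] {hF : Fintype.card F = 4} (S : Star D F hF)
include S

/-- The stabiliser of a set under conjugation. -/
def stab {G : Type*} [Group G] [Finite G] (Δ : Set G) : Subgroup G where
  carrier := {g | ∀ x ∈ Δ, g * x * g⁻¹ ∈ Δ}
  mul_mem' := fun {a b} ha hb x hx => by
    rw [show a * b * x * (a * b)⁻¹ = a * (b * x * b⁻¹) * a⁻¹ by group]; exact ha _ (hb x hx)
  one_mem' := fun x hx => by simpa using hx
  inv_mem' := fun {a} ha x hx => by
    obtain ⟨y, hy, e⟩ : x ∈ (fun y => a * y * a⁻¹) '' Δ := by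
      rw [Set.eq_of_subset_of_ncard_le (Set.image_subset_iff.2 ha)
        (le_of_eq (Set.ncard_image_of_injective _ fun u v h => mul_left_cancel (mul_right_cancel h)).symm)
        (Set.toFinite _)]
      exact hx
    rw [← e, show a⁻¹ * (a * y * a⁻¹) * a⁻¹⁻¹ = y by group]
    exact hy

theorem Star.mem_stab {d e : G} (hd : d ∈ D) (he : e ∈ Comp D d) : e ∈ stab (Comp D d) := by
  intro x hx
  rw [← S.comp_eq hd he] at hx ⊢
  have := S.comp_conj e hx
  rwa [mul_inv_cancel_right] at this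

/-- A member next to another has a neighbour at distance two from it and from the other. -/
theorem Star.exists_far {d a : G} (hd : d ∈ D) (ha : a ∈ Sset D d) :
    ∃ y ∈ Gam2 D d, ¬ Commute a y ∧ (com D a y).Nonempty := by
  obtain ⟨w, -, -, hw⟩ := H43.exists_omega hF
  obtain ⟨R₀⟩ := S.models d hd
  obtain ⟨R, ea⟩ := R₀.exists_at hw ha
  have i0 := iso_std hF hw 0
  have i1 := iso_std hF hw 1
  have hs := herm_std hF hw
  have hq := R.mem _ i1.1.1 i1.1.2
  have haq : Commute a (R.pt (ev w 1)) := by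
    rw [← ea]; exact (R.commute _ _ i0.1.1 i0.1.2 i1.1.1 i1.1.2).2 (hs 0 1).1
  have haq' : a ≠ R.pt (ev w 1) := by
    rw [← ea]
    refine R.pt_ne i0.1.1 i0.1.2 i1.1.1 i1.1.2 fun k e => ?_
    have := congrArg (fun u => herm u (fv w 0)) e
    rw [(hs 0 0).2.2.1.trans (if_pos rfl), herm_smul_left hF,
      (hs 1 0).2.2.1.trans (if_neg (by decide)), mul_zero] at this
    exact one_ne_zero this
  obtain ⟨Q₀⟩ := S.models _ hq.1
  obtain ⟨Q, ed, ea'⟩ := Q₀.exists_at_line hw (sset_swap hd hq) ⟨ha.1, haq', haq.symm⟩ ha.2.2 ha.2.1.symm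
  have hy : fv w 0 + fv w 1 ≠ (0 : Fin 6 → F) ∧ herm (fv w 0 + fv w 1) (fv w 0 + fv w 1) = 0 := by
    refine ⟨fun e => ?_, ?_⟩
    · have := congrArg (fun u => herm u (ev w 0)) e
      simp only [herm_add_left hF, (hs 0 0).2.2.2, (hs 1 0).2.2.2,
        show (0 : Fin 6 → F) = (0 : F) • ev w 0 by rw [zero_smul], herm_smul_left hF] at this
      simp at this
    · simp only [herm_add_left hF, herm_add_right hF, (hs _ _).2.1, add_zero]
  have hm := Q.mem _ hy.1 hy.2
  have far : ∀ k : Fin 3, k = 0 ∨ k = 1 → ¬ Commute (Q.pt (ev w k)) (Q.pt (fv w 0 + fv w 1)) := by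
    intro k hk h
    have h' := (Q.commute _ _ (iso_std hF hw k).1.1 (iso_std hF hw k).1.2 hy.1 hy.2).1 h
    rw [herm_add_right hF, (hs k 0).2.2.1, (hs k 1).2.2.1] at h'
    rcases hk with rfl | rfl <;> simp at h'
  have f0 := far 0 (Or.inl rfl)
  have f1 := far 1 (Or.inr rfl)
  rw [ed] at f0
  rw [ea'] at f1
  exact ⟨_, ⟨hm.1, f0, R.pt (ev w 1), hq, ⟨hq.1, hm.2.1.symm, hm.2.2.symm⟩⟩, f1, R.pt (ev w 1),
    ⟨hq.1, haq'.symm, haq⟩, ⟨hq.1, hm.2.1.symm, hm.2.2.symm⟩⟩

theorem Star.gam2_move {d e : G} (hd : d ∈ D) (he : e ∈ Gam2 D d) : d * e * d * (d * e)⁻¹ = e := by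
  have hde := S.gam2_braid hd he
  rw [mul_inv_rev, S.inv_eq he.1, S.inv_eq hd]
  calc d * e * d * (e * d) = (d * e * d) * e * d := by group
    _ = e * d * (e * e) * d := by rw [hde]; group
    _ = e := by rw [S.sq e he.1, mul_one, mul_assoc, S.sq d hd, mul_one]

/-- The members of a component act transitively on it. -/
theorem Star.comp_trans_closure {d e : G} (hd : d ∈ D) (he : e ∈ Comp D d) :
    ∃ k ∈ Subgroup.closure (Comp D d), k * d * k⁻¹ = e := by
  have hmem : ∀ {x}, x ∈ Comp D d → x ∈ Subgroup.closure (Comp D d) := fun h => Subgroup.subset_closure h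
  have step : ∀ {x y}, x ∈ D → y ∈ Gam2 D x → x ∈ Comp D d → y ∈ Comp D d →
      ∃ k ∈ Subgroup.closure (Comp D d), k * x * k⁻¹ = y := fun {x y} hx hy hx' hy' =>
    ⟨x * y, mul_mem (hmem hx') (hmem hy'), S.gam2_move hx hy⟩
  rcases he with rfl | he | he
  · exact ⟨1, one_mem _, by group⟩
  · obtain ⟨y, hy, hay, hne⟩ := S.exists_far hd he
    have hyc : y ∈ Comp D d := Or.inr (Or.inr hy)
    obtain ⟨k, hk, ek⟩ := step hd hy (comp_self d) hyc
    obtain ⟨l, hl, el⟩ := step hy.1 ⟨he.1, fun h => hay h.symm, hne.imp fun _ h => com_swap h⟩ hyc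
      (comp_of_sset he)
    exact ⟨l * k, mul_mem hl hk, by rw [← el, ← ek]; group⟩
  · exact step hd he (comp_self d) (Or.inr (Or.inr he))

theorem Star.stab_le {d : G} (hd : d ∈ D) : stab (Comp D d) ≤ Subgroup.closure (Comp D d) := by
  intro g hg
  obtain ⟨k, hk, e⟩ := S.comp_trans_closure hd (hg d (comp_self d))
  have hc : Commute d (k⁻¹ * g) := by
    show d * (k⁻¹ * g) = k⁻¹ * g * d
    calc d * (k⁻¹ * g) = k⁻¹ * (k * d * k⁻¹) * g := by group
      _ = k⁻¹ * g * d := by rw [e]; group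
  have h := Subgroup.closure_mono (fun x hx => comp_of_sset hx) (S.cent d hd _ hc)
  have := mul_mem hk h
  rwa [mul_inv_cancel_left] at this

/-- An involution stabilising a component fixes one of its members. -/
theorem Star.fix_member {d g : G} (hd : d ∈ D) (hg : g ∈ stab (Comp D d)) (h2 : g * g = 1) :
    ∃ x ∈ Comp D d, Commute g x := by
  classical
  haveI : Fintype (Comp D d) := Fintype.ofFinite _
  set Δ := Comp D d with hΔ
  let φ : stab Δ →* Equiv.Perm Δ :=
    { toFun := fun g => ⟨fun x => ⟨g.1 * x * g.1⁻¹, g.2 x x.2⟩,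
        fun x => ⟨g.1⁻¹ * x * g.1⁻¹⁻¹, (g⁻¹).2 x x.2⟩,
        fun x => Subtype.ext (by show g.1⁻¹ * (g.1 * x * g.1⁻¹) * g.1⁻¹⁻¹ = x; group),
        fun x => Subtype.ext (by show g.1 * (g.1⁻¹ * x * g.1⁻¹⁻¹) * g.1⁻¹ = x; group)⟩
      map_one' := Equiv.ext fun x => Subtype.ext (by show (1 : G) * x * 1⁻¹ = x; group)
      map_mul' := fun a b => Equiv.ext fun x => Subtype.ext (by
        show (a.1 * b.1) * x * (a.1 * b.1)⁻¹ = a.1 * (b.1 * x * b.1⁻¹) * a.1⁻¹; group) }
  have hN : Fintype.card Δ = 3510 := by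
    rw [← Nat.card_eq_fintype_card, Nat.card_coe_set_eq, S.card_comp hd]
  have heven : (Equiv.Perm.sign.comp φ) = 1 := by
    have hgen : ∀ e (he : e ∈ Δ), Equiv.Perm.sign (φ ⟨e, S.mem_stab hd he⟩) = 1 := by
      intro e he
      have heD := S.comp_subset hd he
      have hsq : φ ⟨e, S.mem_stab hd he⟩ ^ 2 = 1 := by
        rw [← map_pow, show (⟨e, S.mem_stab hd he⟩ : stab Δ) ^ 2 = 1 from
          Subtype.ext (by rw [pow_two]; exact S.sq e heD), map_one]
      rw [Equiv.Perm.sign_of_pow_two_eq_one hsq]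
      have hfix : Fintype.card (Function.fixedPoints (φ ⟨e, S.mem_stab hd he⟩)) = 694 := by
        obtain ⟨R⟩ := S.models e heD
        rw [← Nat.card_eq_fintype_card, Nat.card_coe_set_eq, ← Set.ncard_image_of_injective _ Subtype.val_injective,
          show Subtype.val '' Function.fixedPoints (φ ⟨e, S.mem_stab hd he⟩) = insert e (Sset D e) from ?_,
          Set.ncard_insert_of_notMem (fun h => h.2.1 rfl), pts_card_star R]
        ext x
        constructor
        · rintro ⟨y, hy, rfl⟩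
          have h : e * y * e⁻¹ = (y : G) := congrArg Subtype.val hy
          by_cases hye : (y : G) = e
          · exact Or.inl hye
          · exact Or.inr ⟨S.comp_subset hd y.2, hye, mul_inv_eq_iff_eq_mul.1 h⟩
        · intro hx
          have hxΔ : x ∈ Δ := by
            rw [hΔ, ← S.comp_eq hd he]
            exact hx.elim Or.inl fun h => Or.inr (Or.inl h)
          refine ⟨⟨x, hxΔ⟩, Subtype.ext (show e * x * e⁻¹ = x from ?_), rfl⟩
          rcases hx with rfl | hx
          · rw [mul_inv_cancel_right]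
          · rw [hx.2.2.eq, mul_inv_cancel_right]
      rw [hfix, hN]
      norm_num
    refine MonoidHom.ext fun g => ?_
    have hg : (g : G) ∈ Subgroup.closure Δ := S.stab_le hd g.2
    have : ∀ x (hx : x ∈ Subgroup.closure Δ), ∀ hs : x ∈ stab Δ, Equiv.Perm.sign (φ ⟨x, hs⟩) = 1 := by
      intro x hx
      induction hx using Subgroup.closure_induction with
      | mem e he => exact fun _ => hgen e he
      | one => intro hs; rw [show (⟨1, hs⟩ : stab Δ) = 1 from rfl, map_one, map_one]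
      | mul a b ha hb iha ihb =>
        intro hs
        have hle : Subgroup.closure Δ ≤ stab Δ := (Subgroup.closure_le _).2 fun e he => S.mem_stab hd he
        rw [show (⟨a * b, hs⟩ : stab Δ) = ⟨a, hle ha⟩ * ⟨b, hle hb⟩ from rfl, map_mul, map_mul, iha, ihb, one_mul]
      | inv a ha iha =>
        intro hs
        have hle : Subgroup.closure Δ ≤ stab Δ := (Subgroup.closure_le _).2 fun e he => S.mem_stab hd he
        rw [show (⟨a⁻¹, hs⟩ : stab Δ) = ⟨a, hle ha⟩⁻¹ from rfl, map_inv, map_inv, iha, inv_one]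
    exact this g hg g.2
  by_contra hne
  push Not at hne
  have hsq : φ ⟨g, hg⟩ ^ 2 = 1 := by
    rw [← map_pow, show (⟨g, hg⟩ : stab Δ) ^ 2 = 1 from Subtype.ext (by rw [pow_two]; exact h2), map_one]
  have h1 : Equiv.Perm.sign (φ ⟨g, hg⟩) = 1 := congrArg (fun f => f ⟨g, hg⟩) heven
  rw [Equiv.Perm.sign_of_pow_two_eq_one hsq, hN,
    show Fintype.card (Function.fixedPoints (φ ⟨g, hg⟩)) = 0 from Fintype.card_eq_zero_iff.2 ⟨fun x =>
      hne x.1.1 x.1.2 (mul_inv_eq_iff_eq_mul.1 (congrArg Subtype.val x.2))⟩,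
    Odd.neg_one_pow ⟨877, by norm_num⟩] at h1
  exact absurd h1 (by decide)

end Cfsg.Agent.H98.M22Class
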