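import Cfsg.Agent.H89.M22.Model
import Cfsg.Prelude.Def_FischerSpaces

/-! Being of type M(22) is carried along isomorphisms. -/

set_option autoImplicit false

namespace Cfsg.Agent.H98.M22Class

variable {G G' : Type*} [Group G] [Group G'] (f : G' ≃* G)

/-- The partners go to the partners. -/
theorem image_partners (D : Set G') (a : G') : f '' {y | y ∈ D ∧ y ≠ a ∧ Commute a y} =
    {y | y ∈ f '' D ∧ y ≠ f a ∧ Commute (f a) y} := by
  ext y
  obtain ⟨z, rfl⟩ := f.surjective y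
  simp only [Set.mem_image, EmbeddingLike.apply_eq_iff_eq, exists_eq_right, Set.mem_setOf_eq, ne_eq,
    commute_map_iff f.injective]

/-- Corresponding generated subgroups have isomorphic central quotients. -/
theorem quot_closure {X : Set G'} {Y : Set G} (h : f '' X = Y) :
    Nonempty (↥(Subgroup.closure Y) ⧸ Subgroup.center ↥(Subgroup.closure Y) ≃*
      ↥(Subgroup.closure X) ⧸ Subgroup.center ↥(Subgroup.closure X)) := by
  have e : (Subgroup.closure X).map f.toMonoidHom = Subgroup.closure Y := by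
    rw [MonoidHom.map_closure, ← h]; rfl
  obtain ⟨φ⟩ := H89.M22.nonempty_quot_center
    (((Subgroup.closure X).equivMapOfInjective f.toMonoidHom f.injective).trans (MulEquiv.subgroupCongr e))
  exact ⟨φ.symm⟩

/-- Type M(22) along an isomorphism. -/
theorem m22_transport {D : Set G'} {E : Set G} (hE : f '' D = E) (h : Cfsg.IsOfTypeM22 G' D) :
    Cfsg.IsOfTypeM22 G E := by
  obtain ⟨hZ, d, hd, c, hc, hdc, ⟨F, i1, i2, hF, ⟨φ⟩⟩, c₃, hc₃, Q, hQ1, hQ2, ⟨ψ⟩⟩ := h
  subst hE
  refine ⟨?_, f d, ⟨d, hd, rfl⟩, f c, ⟨c, hc, rfl⟩, fun h => hdc ((commute_map_iff f.injective).1 h), ?_, c₃, hc₃, Q, hQ1,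
    hQ2, ?_⟩
  · refine (Subgroup.eq_bot_iff_forall _).2 fun g hg => ?_
    obtain ⟨z, rfl⟩ := f.surjective g
    have hz : z ∈ Subgroup.center G' := Subgroup.mem_center_iff.2 fun y => f.injective (by
      rw [map_mul, map_mul]; exact Subgroup.mem_center_iff.1 hg (f y))
    rw [hZ, Subgroup.mem_bot] at hz
    rw [hz, map_one]
  · obtain ⟨e⟩ := quot_closure f (image_partners f D d)
    exact ⟨F, i1, i2, hF, ⟨e.trans φ⟩⟩
  · obtain ⟨e⟩ := quot_closure f (X := {y | y ∈ D ∧ y ≠ d ∧ Commute d y} ∩ {y | y ∈ D ∧ y ≠ c ∧ Commute c y})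
      (Y := {y | y ∈ f '' D ∧ y ≠ f d ∧ Commute (f d) y} ∩ {y | y ∈ f '' D ∧ y ≠ f c ∧ Commute (f c) y}) (by
        rw [Set.image_inter f.injective, image_partners, image_partners])
    exact ⟨e.trans ψ⟩

end Cfsg.Agent.H98.M22Class
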